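import Mathlib.RingTheory.LittleWedderburn
import Mathlib.LinearAlgebra.Dual.Lemmas
import Mathlib.GroupTheory.Sylow
import Cfsg.Agent.Invol.IndexTwo
import Mathlib.GroupTheory.Solvable

/-!
A perfect group acting irreducibly and non-trivially over `ZMod 2` preserves no anisotropic
quadratic map.
-/

set_option autoImplicit false

namespace Cfsg.Agent.InvFix

open Finset

/-- A perfect group has no index-two subgroup. -/
theorem index_ne_two_of_perfect {M : Type*} [Group M] (h : commutator M = ⊤) (H : Subgroup M) :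
    H.index ≠ 2 := by
  intro hH
  have hle : commutator M ≤ H := by
    rw [commutator_def, Subgroup.commutator_le]
    intro a _ b _
    rw [commutatorElement_def, Subgroup.mul_mem_iff_of_index_two hH,
      Subgroup.mul_mem_iff_of_index_two hH, Subgroup.mul_mem_iff_of_index_two hH]
    simp only [inv_mem_iff]
    tauto
  rw [h, top_le_iff] at hle
  rw [hle, Subgroup.index_top] at hH
  omega

theorem two_nsmul_eq_zero' {M : Type*} [AddCommGroup M] [Module (ZMod 2) M] (x : M) : x + x = 0 := by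
  rw [← two_smul (ZMod 2) x, show (2 : ZMod 2) = 0 from rfl, zero_smul]

theorem eq_add_of_add_eq' {M : Type*} [AddCommGroup M] [Module (ZMod 2) M] {a b : M}
    (h : a + b = 0) : a = b := by
  rw [add_eq_zero_iff_eq_neg.mp h, neg_eq_of_add_eq_zero_right (two_nsmul_eq_zero' b)]

/-- The sign character of `ZMod 2`. -/
def sgn (a : ZMod 2) : ℤ := if a = 0 then 1 else -1

theorem sgn_add : ∀ a b : ZMod 2, sgn (a + b) = sgn a * sgn b := by decide

theorem sum_sgn_eq_zero {A : Type*} [AddCommGroup A] [Fintype A] (f : A → ZMod 2)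
    (hf : ∀ a b, f (a + b) = f a + f b) {a₀ : A} (h : f a₀ ≠ 0) : ∑ a, sgn (f a) = 0 := by
  have h1 : f a₀ = 1 := by
    revert h; generalize f a₀ = z; revert z; decide
  have h2 : ∑ a, sgn (f a) = ∑ a, sgn (f (a + a₀)) :=
    (Equiv.sum_comp (Equiv.addRight a₀) (fun a => sgn (f a))).symm
  simp_rw [hf, sgn_add, h1] at h2
  rw [← Finset.sum_mul, show sgn 1 = -1 from rfl] at h2
  linarith

variable {V Z : Type*} [AddCommGroup V] [Module (ZMod 2) V] [Finite V]
  [AddCommGroup Z] [Module (ZMod 2) Z] [Finite Z]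

/-- An anisotropic quadratic map with all non-zero functionals non-degenerate is small. -/
theorem card_le_sq (q : V → Z) (B : V →ₗ[ZMod 2] V →ₗ[ZMod 2] Z)
    (hq : ∀ u v, q (u + v) = q u + q v + B u v) (han : ∀ v, q v = 0 → v = 0)
    (hnd : ∀ l : Module.Dual (ZMod 2) Z, l ≠ 0 → ∀ u, (∀ v, l (B u v) = 0) → u = 0) :
    Nat.card V ≤ Nat.card Z * Nat.card Z := by
  classical
  haveI := Fintype.ofFinite V
  haveI := Fintype.ofFinite Z
  haveI : Finite (Module.Dual (ZMod 2) Z) := Finite.of_injective _ DFunLike.coe_injective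
  haveI := Fintype.ofFinite (Module.Dual (ZMod 2) Z)
  set D := Module.Dual (ZMod 2) Z with hD
  have hcardD : Fintype.card D = Nat.card Z := by
    rw [← Nat.card_eq_fintype_card]
    exact Nat.card_congr (Module.Free.chooseBasis (ZMod 2) Z).toDualEquiv.symm.toEquiv
  have hq0 : q 0 = 0 := by
    have := hq 0 0
    simp only [add_zero, map_zero] at this
    exact (left_eq_add.mp this)
  let S : D → ℤ := fun l => ∑ v, sgn (l (q v))
  have hS0 : S 0 = (Fintype.card V : ℤ) := by
    show ∑ v, sgn ((0 : D) (q v)) = _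
    simp [sgn, D]
  have hS : ∀ l : D, l ≠ 0 → S l * S l = (Fintype.card V : ℤ) := by
    intro l hl
    calc S l * S l = ∑ w, ∑ u, sgn (l (q w)) * sgn (l (q u)) := by
          simp only [S]; rw [Finset.sum_mul_sum]
      _ = ∑ w, ∑ u, sgn (l (q w)) * sgn (l (q (u + w))) := by
          refine Finset.sum_congr rfl fun w _ => ?_
          exact (Equiv.sum_comp (Equiv.addRight w) (fun u => sgn (l (q w)) * sgn (l (q u)))).symm
      _ = ∑ w, ∑ u, sgn (l (q u)) * sgn (l (B u w)) := by
          refine Finset.sum_congr rfl fun w _ => Finset.sum_congr rfl fun u _ => ?_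
          rw [← sgn_add, ← sgn_add, hq, map_add, map_add]
          congr 1
          have := two_nsmul_eq_zero' (l (q w))
          calc l (q w) + (l (q u) + l (q w) + l (B u w))
              = (l (q w) + l (q w)) + (l (q u) + l (B u w)) := by abel
            _ = _ := by rw [this, zero_add]
      _ = ∑ u, sgn (l (q u)) * ∑ w, sgn (l (B u w)) := by
          rw [Finset.sum_comm]; simp_rw [Finset.mul_sum]
      _ = ∑ u : V, if u = 0 then (Fintype.card V : ℤ) else 0 := by
          refine Finset.sum_congr rfl fun u _ => ?_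
          split_ifs with hu
          · subst hu
            simp [hq0, sgn]
          · obtain ⟨w, hw⟩ := not_forall.mp (mt (hnd l hl u) hu)
            rw [sum_sgn_eq_zero (fun w => l (B u w)) (fun a b => by simp [map_add]) hw, mul_zero]
      _ = Fintype.card V := by simp
  have htot : ∑ l, S l = Fintype.card D := by
    rw [Finset.sum_comm]
    have : ∀ v, ∑ l : D, sgn (l (q v)) = if v = 0 then (Fintype.card D : ℤ) else 0 := by
      intro v
      split_ifs with hv
      · subst hv; simp [hq0, sgn]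
      · have hne : q v ≠ 0 := mt (han v) hv
        obtain ⟨l, hl⟩ := not_forall.mp
          (mt (Module.forall_dual_apply_eq_zero_iff (ZMod 2) (q v)).mp hne)
        exact sum_sgn_eq_zero (fun l : D => l (q v)) (fun a b => LinearMap.add_apply a b _) hl
    simp [this]
  rw [Nat.card_eq_fintype_card (α := V)]
  by_cases hone : ∀ l : D, l = 0
  · have : ∀ v : V, v = 0 := fun v => han v ((Module.forall_dual_apply_eq_zero_iff (ZMod 2) (q v)).mp
      fun l => by simp [hone l])
    have : Fintype.card V ≤ 1 := Fintype.card_le_one_iff.mpr fun a b => by rw [this a, this b]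
    have := Nat.card_pos (α := Z)
    nlinarith
  obtain ⟨l₀, hl₀⟩ := not_forall.mp hone
  set s := (S l₀).natAbs with hs
  have hs2 : s * s = Fintype.card V := by
    have := congrArg Int.natAbs (hS l₀ hl₀)
    rwa [Int.natAbs_mul, Int.natAbs_natCast] at this
  have hlow : ∀ l ∈ (Finset.univ.erase (0 : D)), -(s : ℤ) ≤ S l := by
    intro l hl
    have h1 := congrArg Int.natAbs (hS l (Finset.mem_erase.mp hl).1)
    rw [Int.natAbs_mul, Int.natAbs_natCast, ← hs2] at h1
    have h2 : (S l).natAbs = s := Nat.mul_self_inj.mp h1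
    have := neg_abs_le (S l)
    rw [Int.abs_eq_natAbs, h2] at this
    exact this
  have h := Finset.card_nsmul_le_sum _ _ _ hlow
  rw [← Finset.add_sum_erase _ _ (Finset.mem_univ (0 : D)), hS0, ← hs2, hcardD] at htot
  rw [Finset.card_erase_of_mem (Finset.mem_univ _), Finset.card_univ, hcardD, nsmul_eq_mul,
    Nat.cast_sub Nat.card_pos] at h
  have hsz : (s : ℤ) ≤ Nat.card Z := by
    by_contra hlt
    push Not at hlt
    push_cast at htot h
    nlinarith
  have hsz' : s ≤ Nat.card Z := by exact_mod_cast hsz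
  rw [← hs2]
  exact Nat.mul_le_mul hsz' hsz'

variable {K : Type*} [Group K] [Finite K]

theorem no_anisotropic_aux (hFT : ∀ (M : Subgroup (Module.End (ZMod 2) V)ˣ),
      Odd (Nat.card M) → Group.IsSolvable M)
    (hK : commutator K = ⊤) (ρ : K →* Module.End (ZMod 2) V)
    (hirr : ∀ U : Submodule (ZMod 2) V, (∀ k, ∀ v ∈ U, ρ k v ∈ U) → U = ⊥ ∨ U = ⊤)
    {k₀ : K} {v₀ : V} (hnt : ρ k₀ v₀ ≠ v₀)
    (q : V → Z) (B : V →ₗ[ZMod 2] V →ₗ[ZMod 2] Z) (hq : ∀ u v, q (u + v) = q u + q v + B u v)
    (hinv : ∀ k v, q (ρ k v) = q v) (han : ∀ v, q v = 0 → v = 0)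
    (hspan : Submodule.span (ZMod 2) (Set.range q) = ⊤) : False := by
  classical
  have hρinv : ∀ k v, ρ k (ρ k⁻¹ v) = v := fun k v => by
    rw [← Module.End.mul_apply, ← map_mul, mul_inv_cancel, map_one]; rfl
  have hρinj : ∀ k, Function.Injective (ρ k) := fun k u v h => by
    have := congrArg (ρ k⁻¹) h
    rwa [← Module.End.mul_apply, ← Module.End.mul_apply, ← map_mul, inv_mul_cancel, map_one] at this
  have hsym : ∀ u v, B u v = B v u := by
    intro u v
    have h := (hq u v).symm.trans ((congrArg q (add_comm u v)).trans (hq v u))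
    rw [add_comm (q v) (q u)] at h
    exact add_left_cancel h
  have hBinv : ∀ k u v, B (ρ k u) (ρ k v) = B u v := by
    intro k u v
    have h := hq (ρ k u) (ρ k v)
    rw [← map_add, hinv, hinv, hinv, hq] at h
    exact (add_left_cancel h).symm
  have hnd : ∀ l : Module.Dual (ZMod 2) Z, l ≠ 0 → ∀ u, (∀ v, l (B u v) = 0) → u = 0 := by
    intro l hl
    let R : Submodule (ZMod 2) V := LinearMap.ker (B.compr₂ l)
    have hR : ∀ u, u ∈ R ↔ ∀ v, l (B u v) = 0 := fun u => by
      simp [R, LinearMap.mem_ker, LinearMap.ext_iff]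
    rcases hirr R (fun k u hu => (hR _).mpr fun v => by
        rw [← hρinv k v, hBinv]; exact (hR u).mp hu _) with h | h
    · intro u hu
      have : u ∈ R := (hR u).mpr hu
      rwa [h, Submodule.mem_bot] at this
    exfalso
    have h0 : ∀ u v, l (B u v) = 0 := fun u => (hR u).mp (h ▸ Submodule.mem_top)
    let f : V →ₗ[ZMod 2] ZMod 2 := AddMonoidHom.toZModLinearMap 2
      (AddMonoidHom.mk' (fun v => l (q v)) fun a b => by rw [hq, map_add, map_add, h0, add_zero])
    have hf : ∀ v, f v = l (q v) := fun v => rfl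
    rcases hirr (LinearMap.ker f) (fun k v hv => by
        rw [LinearMap.mem_ker, hf, hinv, ← hf]; exact hv) with hb | ht
    · exact hnt (LinearMap.ker_eq_bot.mp hb (by rw [hf, hf, hinv]))
    · refine hl (LinearMap.ext_on_range hspan fun v => ?_)
      rw [← hf, LinearMap.ker_eq_top.mp ht]
      rfl
  -- the commutant
  let F : Subalgebra (ZMod 2) (Module.End (ZMod 2) V) :=
    Subalgebra.centralizer (ZMod 2) (Set.range ρ)
  have hmemF : ∀ T : Module.End (ZMod 2) V, T ∈ F ↔ ∀ k v, ρ k (T v) = T (ρ k v) := by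
    intro T
    simp only [F, Subalgebra.mem_centralizer_iff, Set.forall_mem_range, LinearMap.ext_iff,
      Module.End.mul_apply]
  have hFinj : ∀ T : F, T ≠ 0 → Function.Injective (T : Module.End (ZMod 2) V) := by
    intro T hT
    rcases hirr (LinearMap.ker (T : Module.End (ZMod 2) V)) (fun k v hv => by
        rw [LinearMap.mem_ker] at hv ⊢
        rw [← (hmemF T).mp T.2 k v, hv, map_zero]) with h | h
    · exact LinearMap.ker_eq_bot.mp h
    · exact absurd (Subtype.ext (LinearMap.ker_eq_top.mp h)) hT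
  haveI : Nontrivial V := ⟨⟨_, _, hnt⟩⟩
  haveI : Finite (Module.End (ZMod 2) V) := Finite.of_injective _ DFunLike.coe_injective
  haveI : Nontrivial F := ⟨⟨1, 0, fun h => by
    have := LinearMap.congr_fun (congrArg Subtype.val h) v₀
    simp at this
    exact hnt (by rw [this, map_zero])⟩⟩
  haveI : NoZeroDivisors F := ⟨fun {S T} h => by
    by_contra hc
    push Not at hc
    refine hnt ?_
    have h1 : ∀ v : V, v = 0 := fun v => hFinj T hc.2 (hFinj S hc.1 (by
      have := LinearMap.congr_fun (congrArg Subtype.val h) v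
      simpa using this))
    rw [h1 v₀, map_zero]⟩
  haveI : IsDomain F := NoZeroDivisors.to_isDomain _
  have hFfield := Finite.isDomain_to_isField F
  have hFsurj : ∀ T : F, T ≠ 0 → Function.Surjective (T : Module.End (ZMod 2) V) := fun T hT =>
    Finite.injective_iff_surjective.mp (hFinj T hT)
  have hcommF : ∀ (S T : F) (v : V), (S : Module.End (ZMod 2) V) ((T : Module.End (ZMod 2) V) v)
      = (T : Module.End (ZMod 2) V) ((S : Module.End (ZMod 2) V) v) := fun S T v =>
    LinearMap.congr_fun (congrArg Subtype.val (hFfield.mul_comm S T)) v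
  haveI : Finite F := inferInstance
  -- the forms
  obtain ⟨v₁, hv₁⟩ := exists_ne (0 : V)
  obtain ⟨l₀, hl₀'⟩ := not_forall.mp
    (mt (Module.forall_dual_apply_eq_zero_iff (ZMod 2) (q v₁)).mp (mt (han v₁) hv₁))
  have hl₀ : l₀ ≠ 0 := fun h => hl₀' (by simp [h])
  let Φ : V →ₗ[ZMod 2] Module.Dual (ZMod 2) V := B.compr₂ l₀
  have hΦ : ∀ u v, Φ u v = l₀ (B u v) := fun u v => rfl
  have hΦinj : Function.Injective Φ := by
    rw [← LinearMap.ker_eq_bot, Submodule.eq_bot_iff]
    exact fun u hu => hnd l₀ hl₀ u fun v => LinearMap.congr_fun (LinearMap.mem_ker.mp hu) v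
  have hΦbij : Function.Bijective Φ :=
    ⟨hΦinj, (LinearMap.injective_iff_surjective_of_finrank_eq_finrank
      Subspace.dual_finrank_eq.symm).mp hΦinj⟩
  let e := LinearEquiv.ofBijective Φ hΦbij
  let T₀ : Module.Dual (ZMod 2) Z → Module.End (ZMod 2) V := fun l =>
    e.symm.toLinearMap.comp (B.compr₂ l)
  have hT₀ : ∀ l u v, l₀ (B (T₀ l u) v) = l (B u v) := by
    intro l u v
    have : Φ (T₀ l u) = B.compr₂ l u := e.apply_symm_apply _
    exact LinearMap.congr_fun this v
  have hT₀F : ∀ l, T₀ l ∈ F := by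
    intro l
    rw [hmemF]
    intro k u
    refine hΦinj (LinearMap.ext fun v => ?_)
    rw [hΦ, hΦ, hT₀]
    conv_lhs => rw [← hρinv k v, hBinv, hT₀]
    conv_rhs => rw [← hρinv k v, hBinv]
  let θ : Module.Dual (ZMod 2) Z → F := fun l => ⟨T₀ l, hT₀F l⟩
  have hθinj : Function.Injective θ := by
    intro l m h
    by_contra hne
    obtain ⟨u, hu⟩ := exists_ne (0 : V)
    refine hu (hnd (l - m) (sub_ne_zero.mpr hne) u fun v => ?_)
    have h' : T₀ l = T₀ m := congrArg Subtype.val h
    rw [LinearMap.sub_apply, ← hT₀ l, h', hT₀, sub_self]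
  have hcardZ : Nat.card (Module.Dual (ZMod 2) Z) = Nat.card Z :=
    Nat.card_congr (Module.Free.chooseBasis (ZMod 2) Z).toDualEquiv.symm.toEquiv
  have hVle := card_le_sq q B hq han hnd
  have hZle : Nat.card Z ≤ Nat.card F := hcardZ ▸ Nat.card_le_card_of_injective θ hθinj
  -- two vectors
  have hnotcyc : ∀ x : V, ∃ w, ∀ T : F, (T : Module.End (ZMod 2) V) x ≠ w := by
    intro x
    by_contra hc
    push Not at hc
    have hcomm : ∀ a b : K, ρ a * ρ b = ρ b * ρ a := by
      intro a b
      refine LinearMap.ext fun w => ?_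
      obtain ⟨S, rfl⟩ := hc w
      obtain ⟨Ta, hTa⟩ := hc (ρ a x)
      obtain ⟨Tb, hTb⟩ := hc (ρ b x)
      simp only [Module.End.mul_apply]
      have ha := (hmemF _).mp S.2 a
      have hb := (hmemF _).mp S.2 b
      have hTb' := (hmemF _).mp Tb.2 a
      have hTa' := (hmemF _).mp Ta.2 b
      rw [ha, hb, hb, ha, ← hTa, ← hTb, hTa', ← hTb, hTb', ← hTa]
      exact congrArg (S : Module.End (ZMod 2) V) (hcommF Tb Ta x)
    have hle : commutator K ≤ ρ.toHomUnits.ker := by
      rw [commutator_def, Subgroup.commutator_le]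
      intro a _ b _
      rw [MonoidHom.mem_ker, map_commutatorElement]
      exact commutatorElement_eq_one_iff_mul_comm.mpr (Units.ext (hcomm a b))
    rw [hK] at hle
    have := congrArg Units.val (MonoidHom.mem_ker.mp (hle (Subgroup.mem_top k₀)))
    rw [MonoidHom.coe_toHomUnits, Units.val_one] at this
    exact hnt (by rw [this]; rfl)
  let pair : V → V → F × F → V := fun x w p =>
    (p.1 : Module.End (ZMod 2) V) x + (p.2 : Module.End (ZMod 2) V) w
  have hpinj : ∀ x w : V, x ≠ 0 → (∀ T : F, (T : Module.End (ZMod 2) V) x ≠ w) →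
      Function.Injective (pair x w) := by
    intro x w hx hw p p' h
    obtain ⟨S, hS⟩ : ∃ S : F, p'.1 - p.1 = S := ⟨_, rfl⟩
    obtain ⟨T, hT⟩ : ∃ T : F, p.2 - p'.2 = T := ⟨_, rfl⟩
    have h1 : (T : Module.End (ZMod 2) V) w = (S : Module.End (ZMod 2) V) x := by
      rw [← hS, ← hT]
      simp only [Subalgebra.coe_sub, LinearMap.sub_apply]
      rw [sub_eq_sub_iff_add_eq_add, add_comm]
      exact h
    by_cases hT0 : T = 0
    · rw [hT0] at h1
      have hS0 : S = 0 := by
        by_contra hS0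
        exact hx (hFinj S hS0 (by simpa using h1.symm))
      exact Prod.ext (sub_eq_zero.mp (hS.trans hS0)).symm (sub_eq_zero.mp (hT.trans hT0))
    · obtain ⟨T', hT'⟩ := hFfield.mul_inv_cancel hT0
      refine absurd ?_ (hw (T' * S))
      rw [Subalgebra.coe_mul, Module.End.mul_apply, ← h1, hcommF, ← Module.End.mul_apply,
        ← Subalgebra.coe_mul, hT', Subalgebra.coe_one, Module.End.one_apply]
  have hFV : Nat.card F * Nat.card F ≤ Nat.card V := by
    obtain ⟨w, hw⟩ := hnotcyc v₁
    rw [← Nat.card_prod]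
    exact Nat.card_le_card_of_injective _ (hpinj v₁ w hv₁ hw)
  have hZF : Nat.card Z = Nat.card F := le_antisymm hZle (Nat.mul_self_le_mul_self_iff.mp (hFV.trans hVle))
  have hVF : Nat.card V = Nat.card F * Nat.card F := le_antisymm (hZF ▸ hVle) hFV
  have hθsurj : Function.Surjective θ :=
    ((Nat.bijective_iff_injective_and_card θ).mpr ⟨hθinj, hcardZ.trans hZF⟩).2
  have hspan2 : ∀ x w : V, x ≠ 0 → (∀ T : F, (T : Module.End (ZMod 2) V) x ≠ w) →
      Function.Surjective (pair x w) := fun x w hx hw =>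
    ((Nat.bijective_iff_injective_and_card _).mpr
      ⟨hpinj x w hx hw, by rw [Nat.card_prod, hVF]⟩).2
  have hBF : ∀ (T : F) u v,
      B ((T : Module.End (ZMod 2) V) u) v = B u ((T : Module.End (ZMod 2) V) v) := by
    intro T u v
    obtain ⟨m, rfl⟩ := hθsurj T
    have hB0 : ∀ a b, l₀ (B (T₀ m a) b) = l₀ (B a (T₀ m b)) := fun a b => by
      rw [hT₀, hsym a b, ← hT₀ m b a, hsym]
    refine sub_eq_zero.mp ((Module.forall_dual_apply_eq_zero_iff (ZMod 2) _).mp fun l => ?_)
    rw [map_sub, sub_eq_zero]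
    show l (B (T₀ m u) v) = l (B u (T₀ m v))
    rw [← hT₀ l, ← hT₀ l u, ← hB0]
    exact congrArg (fun z => l₀ (B z v)) (hcommF (θ l) (θ m) u)
  -- nilpotent maps commuting with the commutant
  have nilEigen : ∀ φ : Module.End (ZMod 2) V,
      (∀ (T : F) v, φ ((T : Module.End (ZMod 2) V) v) = (T : Module.End (ZMod 2) V) (φ v)) →
      (∃ n, φ ^ n = 0) → ∀ (T : F) y, φ y = (T : Module.End (ZMod 2) V) y → φ y = 0 := by
    rintro φ hφ ⟨n, hn⟩ T y hy
    by_cases hT : T = 0
    · rw [hy, hT]; simp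
    have : ∀ i : ℕ, (φ ^ i) y = ((T ^ i : F) : Module.End (ZMod 2) V) y := by
      intro i
      induction i with
      | zero => simp
      | succ i ih =>
        rw [pow_succ', Module.End.mul_apply, ih, hφ, hy, pow_succ, Subalgebra.coe_mul,
          Module.End.mul_apply]
    have h0 := this n
    rw [hn, LinearMap.zero_apply] at h0
    have hy0 : y = 0 := hFinj (T ^ n) (pow_ne_zero n hT) (by rw [← h0, map_zero])
    rw [hy0, map_zero]
  have sq_zero : ∀ φ : Module.End (ZMod 2) V,
      (∀ (T : F) v, φ ((T : Module.End (ZMod 2) V) v) = (T : Module.End (ZMod 2) V) (φ v)) →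
      (∃ n, φ ^ n = 0) → ∀ x, φ (φ x) = 0 := by
    intro φ hφ hnil x
    by_cases hx : φ x = 0
    · rw [hx, map_zero]
    have hx0 : x ≠ 0 := fun h => hx (by rw [h, map_zero])
    have hind : ∀ T : F, (T : Module.End (ZMod 2) V) x ≠ φ x := fun T h =>
      hx (nilEigen φ hφ hnil T x h.symm)
    obtain ⟨⟨S, T⟩, hST⟩ := hspan2 x (φ x) hx0 hind (φ (φ x))
    by_contra hne
    have hk := Nat.find_spec (p := fun n => (φ ^ n) x = 0) (by
      obtain ⟨n, hn⟩ := hnil; exact ⟨n, by rw [hn]; rfl⟩)
    set k := Nat.find (p := fun n => (φ ^ n) x = 0) _ with hkdef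
    have hmin : ∀ i < k, (φ ^ i) x ≠ 0 := fun i hi => Nat.find_min _ hi
    have hk2 : 2 < k := by
      by_contra hle
      push Not at hle
      interval_cases hk' : k
      · exact hx0 (by simpa using hk)
      · exact hx (by simpa using hk)
      · exact hne (by simpa [pow_two] using hk)
    have hcp : ∀ (T : F) i v, (φ ^ i) ((T : Module.End (ZMod 2) V) v)
        = (T : Module.End (ZMod 2) V) ((φ ^ i) v) := by
      intro T i
      induction i with
      | zero => simp
      | succ i ih => intro v; rw [pow_succ', Module.End.mul_apply, ih, hφ, Module.End.mul_apply]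
    clear_value k
    obtain ⟨j, rfl⟩ : ∃ j, k = j + 1 := ⟨k - 1, by omega⟩
    have h1 := congrArg (fun v => (φ ^ j) v) hST
    simp only [pair, map_add, hcp] at h1
    rw [← Module.End.mul_apply (φ ^ j) φ x, ← pow_succ, hk, map_zero, add_zero,
      ← Module.End.mul_apply (φ ^ j) φ, ← pow_succ, ← Module.End.mul_apply (φ ^ (j + 1)) φ,
      ← pow_succ, pow_succ' φ (j + 1), Module.End.mul_apply, hk, map_zero] at h1
    have hS0 : S = 0 := by
      by_contra hS0
      exact hmin j (by omega) (hFinj S hS0 (by rw [h1, map_zero]))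
    have h2 : φ (φ x) = (T : Module.End (ZMod 2) V) (φ x) := by
      rw [← hST]; simp [pair, hS0]
    exact hne (nilEigen φ hφ hnil T (φ x) h2)
  -- the image group
  set M := ρ.toHomUnits.range with hM
  haveI : Finite M := Finite.of_surjective ρ.toHomUnits.rangeRestrict
    ρ.toHomUnits.rangeRestrict_surjective
  have hMperf : commutator M = ⊤ := by
    rw [commutator_def, ← Subgroup.map_top_of_surjective _ ρ.toHomUnits.rangeRestrict_surjective,
      ← Subgroup.map_commutator, ← commutator_def, hK]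
  have hMnontriv : (ρ.toHomUnits.rangeRestrict k₀ : M) ≠ 1 := fun h => by
    have := congrArg (fun m : M => ((m : (Module.End (ZMod 2) V)ˣ) : Module.End (ZMod 2) V)) h
    simp at this
    exact hnt (by rw [this]; rfl)
  let val : M →* Module.End (ZMod 2) V := (Units.coeHom _).comp M.subtype
  have hvalinj : Function.Injective val := fun a b h => Subtype.ext (Units.ext h)
  have hvalρ : ∀ m : M, ∃ k, val m = ρ k := by
    rintro ⟨_, k, rfl⟩
    exact ⟨k, rfl⟩
  have htwo : ∀ a : Module.End (ZMod 2) V, a + a = 0 := two_nsmul_eq_zero'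
  have hphi : ∀ (m : M), (∃ e, m ^ 2 ^ e = 1) →
      (∀ (T : F) v, (val m + 1) ((T : Module.End (ZMod 2) V) v)
        = (T : Module.End (ZMod 2) V) ((val m + 1) v)) ∧ (∃ n, (val m + 1) ^ n = 0) := by
    rintro m ⟨e, he⟩
    refine ⟨fun T v => ?_, 2 ^ e, ?_⟩
    · obtain ⟨k, hk⟩ := hvalρ m
      simp [hk, (hmemF _).mp T.2 k v]
    · have hpow : ∀ i : ℕ, (val m + 1) ^ 2 ^ i = val m ^ 2 ^ i + 1 := by
        intro i
        induction i with
        | zero => simp
        | succ i ih =>
          rw [pow_succ 2 i, pow_mul, ih, pow_mul, pow_two, pow_two, mul_add, add_mul, mul_one,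
            one_mul]
          rw [add_assoc, ← add_assoc (val m ^ 2 ^ i), htwo, zero_add]
      rw [hpow, ← map_pow, he, map_one, htwo]
  have hM2 : ∀ m : M, (∃ e, m ^ 2 ^ e = 1) → m * m = 1 := by
    intro m hm
    obtain ⟨h1, h2⟩ := hphi m hm
    refine hvalinj (LinearMap.ext fun v => ?_)
    have := sq_zero _ h1 h2 v
    simp only [LinearMap.add_apply, Module.End.one_apply, map_add] at this
    rw [add_assoc, ← add_assoc (val m v), two_nsmul_eq_zero', zero_add] at this
    rw [map_mul, map_one, Module.End.mul_apply, Module.End.one_apply]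
    exact eq_add_of_add_eq' this
  haveI : Fact (Nat.Prime 2) := ⟨Nat.prime_two⟩
  have heven : Even (Nat.card M) := by
    by_contra hodd
    haveI := hFT M (Nat.not_even_iff_odd.mp hodd)
    haveI : Nontrivial M := ⟨⟨_, _, hMnontriv⟩⟩
    exact absurd hMperf (IsSolvable.commutator_lt_top_of_nontrivial M).ne
  let P : Sylow 2 M := default
  have hP2 : ∀ m ∈ (P : Subgroup M), m * m = 1 := fun m hm => hM2 m (by
    obtain ⟨e, he⟩ := P.2 ⟨m, hm⟩
    exact ⟨e, congrArg Subtype.val he⟩)
  have hncyc : ¬ IsCyclic (P : Subgroup M) := fun h => by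
    obtain ⟨H, hH⟩ := Cfsg.Agent.Invol.exists_index_two_of_cyclic_sylow heven P h
    exact index_ne_two_of_perfect hMperf H hH
  have hPne : (P : Subgroup M) ≠ ⊥ := fun h => hncyc (h ▸ inferInstance)
  obtain ⟨⟨s, hsP⟩, hs1⟩ := Subgroup.ne_bot_iff_exists_ne_one.mp hPne
  obtain ⟨t, htP, hts⟩ : ∃ t ∈ (P : Subgroup M), t ∉ Subgroup.zpowers s := by
    by_contra hc
    push Not at hc
    refine hncyc ((le_antisymm hc (Subgroup.zpowers_le.mpr hsP)).symm ▸ inferInstance)
  have hs1' : s ≠ 1 := fun h => hs1 (Subtype.ext h)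
  have ht1 : t ≠ 1 := fun h => hts (h ▸ one_mem _)
  have hst : s ≠ t := fun h => hts (h ▸ Subgroup.mem_zpowers s)
  have hcomm : s * t = t * s := by
    have hi : ∀ m ∈ (P : Subgroup M), m⁻¹ = m := fun m hm =>
      inv_eq_of_mul_eq_one_right (hP2 m hm)
    have := hi _ ((P : Subgroup M).mul_mem hsP htP)
    rwa [mul_inv_rev, hi s hsP, hi t htP, eq_comm] at this
  obtain ⟨hφF, hφnil⟩ := hphi s ⟨1, by rw [pow_one, pow_two]; exact hP2 s hsP⟩
  obtain ⟨hψF, hψnil⟩ := hphi t ⟨1, by rw [pow_one, pow_two]; exact hP2 t htP⟩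
  set φ := val s + 1 with hφ
  set ψ := val t + 1 with hψ
  have hne_of : ∀ a b : M, a ≠ b → val a + val b ≠ 0 := fun a b hab h =>
    hab (hvalinj (eq_add_of_add_eq' h))
  obtain ⟨x, hx⟩ : ∃ x, φ x ≠ 0 := by
    by_contra hc
    push Not at hc
    exact hne_of s 1 hs1' (by rw [map_one]; exact LinearMap.ext hc)
  have hφ2 := sq_zero φ hφF hφnil
  have hx0 : x ≠ 0 := fun h => hx (by rw [h, map_zero])
  have hind : ∀ T : F, (T : Module.End (ZMod 2) V) x ≠ φ x := fun T h =>
    hx (nilEigen φ hφF hφnil T x h.symm)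
  have hsp := hspan2 x (φ x) hx0 hind
  have hψφ : ∀ v, ψ (φ v) = φ (ψ v) := fun v => by
    have := congrArg (fun m => val m v) hcomm
    simp only [map_mul, Module.End.mul_apply] at this
    simp only [hφ, hψ, LinearMap.add_apply, Module.End.one_apply, map_add, this]
    abel
  obtain ⟨⟨S, μ⟩, hSμ⟩ := hsp (ψ x)
  simp only [pair] at hSμ
  have hS0 : S = 0 := by
    by_contra hS0
    have h1 : ψ (φ x) = (S : Module.End (ZMod 2) V) (φ x) := by
      rw [hψφ, ← hSμ, map_add, hφF, hφF, hφ2, map_zero, add_zero]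
    exact hx (hFinj S hS0 (by rw [map_zero, ← h1, nilEigen ψ hψF hψnil S _ h1]))
  have hψx : ψ x = (μ : Module.End (ZMod 2) V) (φ x) := by simpa [hS0] using hSμ.symm
  have hψeq : ∀ v, ψ v = (μ : Module.End (ZMod 2) V) (φ v) := by
    intro v
    obtain ⟨⟨a, b⟩, rfl⟩ := hsp v
    simp only [pair, map_add, hψF, hφF, hψφ, hψx, hφ2, map_zero, add_zero, hcommF]
  have hμ0 : μ ≠ 0 := fun h => hne_of t 1 ht1 (by
    rw [map_one]
    exact LinearMap.ext fun v => by rw [← hψ, hψeq, h]; simp)
  have hμ1 : μ + 1 ≠ 0 := fun h => hst (hvalinj (LinearMap.ext fun v => by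
    have h1 : μ = 1 := Subtype.ext (eq_add_of_add_eq' (congrArg Subtype.val h))
    have := hψeq v
    rw [h1, Subalgebra.coe_one, Module.End.one_apply] at this
    simp only [hφ, hψ, LinearMap.add_apply, Module.End.one_apply] at this
    exact (add_right_cancel this).symm))
  -- the quadratic map on the fixed line
  have hqφ : ∀ (m : M) v, q ((val m + 1) v) = B v ((val m + 1) v) := by
    intro m v
    obtain ⟨k, hk⟩ := hvalρ m
    have h1 : v + (val m + 1) v = val m v := by
      simp only [LinearMap.add_apply, Module.End.one_apply]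
      rw [add_left_comm, two_nsmul_eq_zero', add_zero]
    have h2 := hq v ((val m + 1) v)
    rw [h1, hk, hinv, add_assoc] at h2
    rw [hk]
    exact eq_add_of_add_eq' (left_eq_add.mp h2)
  let c : F := μ * (μ + 1)
  have hc : ∀ v, B v ((c : Module.End (ZMod 2) V) (φ v)) = 0 := by
    intro v
    have h1 := hqφ t v
    rw [← hψ, hψeq, ← hφF] at h1
    rw [hφ, hqφ s, ← hφ, hφF, hBF] at h1
    simp only [c, Subalgebra.coe_mul, Subalgebra.coe_add, Subalgebra.coe_one, Module.End.mul_apply,
      LinearMap.add_apply, Module.End.one_apply, map_add]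
    rw [h1]
    exact two_nsmul_eq_zero' _
  obtain ⟨γ, hγ⟩ : ∃ γ : F, γ * γ * c = 1 := by
    obtain ⟨c', hc'⟩ := hFfield.mul_inv_cancel (mul_ne_zero hμ0 hμ1)
    have hsq : Function.Injective fun a : F => a * a := by
      intro a b h
      simp only at h
      have h2 : ∀ z : F, z + z = 0 := fun z => Subtype.ext (htwo _)
      have : (a + b) * (a + b) = 0 := by
        rw [mul_add, add_mul, add_mul, h, hFfield.mul_comm b a]
        have e1 := h2 (b * b); have e2 := h2 (a * b)
        calc b * b + a * b + (a * b + b * b) = (b * b + b * b) + (a * b + a * b) := by abel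
          _ = 0 := by rw [e1, e2, add_zero]
      exact Subtype.ext (eq_add_of_add_eq' (congrArg Subtype.val (mul_self_eq_zero.mp this)))
    obtain ⟨γ, hγ⟩ := Finite.injective_iff_surjective.mp hsq c'
    exact ⟨γ, by simp only at hγ; rw [hγ, hFfield.mul_comm]; exact hc'⟩
  refine hx (han _ ?_)
  rw [hφ, hqφ, ← hφ]
  have h := hc ((γ : Module.End (ZMod 2) V) x)
  rw [hBF, hφF, hcommF c γ, ← Module.End.mul_apply, ← Module.End.mul_apply, ← Subalgebra.coe_mul,
    ← Subalgebra.coe_mul, hγ] at h
  simpa using h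

/-- A perfect group acting irreducibly and non-trivially over `ZMod 2` preserves no anisotropic
quadratic map. -/
theorem no_anisotropic (hFT : ∀ (M : Subgroup (Module.End (ZMod 2) V)ˣ),
      Odd (Nat.card M) → Group.IsSolvable M)
    (hK : commutator K = ⊤) (ρ : K →* Module.End (ZMod 2) V)
    (hirr : ∀ U : Submodule (ZMod 2) V, (∀ k, ∀ v ∈ U, ρ k v ∈ U) → U = ⊥ ∨ U = ⊤)
    {k₀ : K} {v₀ : V} (hnt : ρ k₀ v₀ ≠ v₀)
    (q : V → Z) (B : V →ₗ[ZMod 2] V →ₗ[ZMod 2] Z) (hq : ∀ u v, q (u + v) = q u + q v + B u v)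
    (hinv : ∀ k v, q (ρ k v) = q v) (han : ∀ v, q v = 0 → v = 0) : False := by
  set Z₁ := Submodule.span (ZMod 2) (Set.range q) with hZ₁
  have hmem : ∀ v, q v ∈ Z₁ := fun v => Submodule.subset_span ⟨v, rfl⟩
  have hBmem : ∀ u v, B u v ∈ Z₁ := fun u v => by
    have : B u v = q (u + v) - (q u + q v) := by rw [hq, add_sub_cancel_left]
    rw [this]
    exact Z₁.sub_mem (hmem _) (Z₁.add_mem (hmem _) (hmem _))
  let B' : V →ₗ[ZMod 2] V →ₗ[ZMod 2] Z₁ :=
    LinearMap.mk₂ (ZMod 2) (fun u v => ⟨B u v, hBmem u v⟩) (fun a b c => Subtype.ext (by simp))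
      (fun r a b => Subtype.ext (by simp)) (fun a b c => Subtype.ext (by simp))
      (fun r a b => Subtype.ext (by simp))
  refine no_anisotropic_aux hFT hK ρ hirr hnt (fun v => (⟨q v, hmem v⟩ : Z₁)) B'
    (fun u v => Subtype.ext (hq u v)) (fun k v => Subtype.ext (hinv k v))
    (fun v hv => han v (congrArg Subtype.val hv)) ?_
  rw [eq_top_iff]
  rintro ⟨z, hz⟩ -
  have h : ∀ z, ∀ hz : z ∈ Z₁, (⟨z, hz⟩ : Z₁) ∈
      Submodule.span (ZMod 2) (Set.range fun v => (⟨q v, hmem v⟩ : Z₁)) := by
    intro z hz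
    induction hz using Submodule.span_induction with
    | mem x hx => obtain ⟨v, rfl⟩ := hx; exact Submodule.subset_span ⟨v, rfl⟩
    | zero => exact Submodule.zero_mem _
    | add x y hx hy ihx ihy => exact Submodule.add_mem _ ihx ihy
    | smul r x hx ih => exact Submodule.smul_mem _ r ih
  exact h z hz

end Cfsg.Agent.InvFix
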