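import Mathlib.Algebra.Module.ZMod
import Mathlib.Tactic.NoncommRing
import Cfsg.Agent.InvFix.Anisotropic
import Cfsg.Agent.PGroup.Frattini

/-!
A perfect group of automorphisms of a finite 2-group fixing every involution is trivial.
-/

set_option autoImplicit false

namespace Cfsg.Agent.InvFix

universe u

variable {K : Type*} [Group K] [Finite K]

/-- An action whose displacements commute is abelian, hence trivial for a perfect group. -/
theorem false_of_comm_displacement {P : Type*} [Group P] (hK : commutator K = ⊤)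
    (f : K →* MulAut P) {k₀ : K} {x₀ : P} (hnt : f k₀ x₀ ≠ x₀)
    (hfix : ∀ k l x, f k (x⁻¹ * f l x) = x⁻¹ * f l x)
    (hcomm : ∀ k l x, (x⁻¹ * f k x) * (x⁻¹ * f l x) = (x⁻¹ * f l x) * (x⁻¹ * f k x)) : False := by
  have key : ∀ k l x, f (k * l) x = x * ((x⁻¹ * f k x) * (x⁻¹ * f l x)) := by
    intro k l x
    have : f l x = x * (x⁻¹ * f l x) := by group
    rw [map_mul, MulAut.mul_apply]
    conv_lhs => rw [this, map_mul, hfix]
    group
  have hle : commutator K ≤ f.ker := by
    rw [commutator_def, Subgroup.commutator_le]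
    intro a _ b _
    rw [MonoidHom.mem_ker, map_commutatorElement]
    refine commutatorElement_eq_one_iff_mul_comm.mpr (MulEquiv.ext fun x => ?_)
    rw [← map_mul, ← map_mul, key, key, hcomm]
  rw [hK] at hle
  exact hnt (by rw [MonoidHom.mem_ker.mp (hle (Subgroup.mem_top k₀))]; rfl)

/-- The minimal case. -/
theorem no_minimal {P : Type u} [Group P] [Finite P] (hP : IsPGroup 2 P)
    (hFT : ∀ (X : Type u) [Group X] [Finite X], Odd (Nat.card X) → Group.IsSolvable X)
    (hK : commutator K = ⊤) (f : K →* MulAut P) {k₀ : K} {x₀ : P} (hnt : f k₀ x₀ ≠ x₀)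
    (hinvol : ∀ k x, x * x = 1 → f k x = x)
    (hmin : ∀ Q : Subgroup P, Q ≠ ⊤ → (∀ k, ∀ x ∈ Q, f k x ∈ Q) → ∀ k, ∀ x ∈ Q, f k x = x) :
    False := by
  classical
  haveI : Fact (Nat.Prime 2) := ⟨Nat.prime_two⟩
  let W : Subgroup P :=
    { carrier := {x | ∀ k, f k x = x}
      one_mem' := fun k => map_one _
      mul_mem' := fun {a b} ha hb k => by rw [map_mul, ha k, hb k]
      inv_mem' := fun {a} ha k => by rw [map_inv, ha k] }
  have hWfix : ∀ k, ∀ x ∈ W, f k x = x := fun k x hx => hx k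
  have hW : ∀ x, x * x ∈ W ∧ ∀ y, x⁻¹ * y * x * y⁻¹ ∈ W := by
    have hΦ : frattini P ≠ ⊤ := fun h => by
      have : (⊥ : Subgroup P) = ⊤ := frattini_nongenerating (by rw [h, sup_top_eq])
      exact hnt (by
        have hx : x₀ ∈ (⊥ : Subgroup P) := this ▸ Subgroup.mem_top x₀
        rw [Subgroup.mem_bot.mp hx, map_one])
    have hΦW : ∀ k, ∀ x ∈ frattini P, f k x = x := hmin _ hΦ fun k x hx => by
      have h := Subgroup.characteristic_iff_map_le.mp frattini_characteristic (f k)
      exact h ⟨x, hx, rfl⟩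
    refine fun x => ⟨fun k => hΦW k _ ?_, fun y k => hΦW k _ ?_⟩
    · have := Cfsg.Agent.PGroup.pow_mem_frattini hP x
      rwa [pow_two] at this
    · have := Cfsg.Agent.PGroup.commutator_le_frattini hP
        (Subgroup.commutator_mem_commutator (Subgroup.mem_top x⁻¹) (Subgroup.mem_top y))
      rwa [commutatorElement_def, inv_inv] at this
  haveI : W.Normal := ⟨fun w hw g => by
    have h1 := (hW g⁻¹).2 w
    rw [inv_inv] at h1
    simpa using W.mul_mem h1 hw⟩
  -- the subgroup of fixed points is central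
  have hcen : ∀ w ∈ W, ∀ y, y * w = w * y := by
    by_cases hC : Subgroup.centralizer (W : Set P) = ⊤
    · intro w hw y
      exact (Subgroup.mem_centralizer_iff.mp (hC ▸ Subgroup.mem_top y) w hw).symm
    exfalso
    have hCinv : ∀ k, ∀ x ∈ Subgroup.centralizer (W : Set P),
        f k x ∈ Subgroup.centralizer (W : Set P) := fun k x hx =>
      Subgroup.mem_centralizer_iff.mpr fun w hw => by
        have := congrArg (f k) (Subgroup.mem_centralizer_iff.mp hx w hw)
        rwa [map_mul, map_mul, hWfix k w hw] at this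
    have hCW : ∀ x ∈ Subgroup.centralizer (W : Set P), x ∈ W := fun x hx k => hmin _ hC hCinv k x hx
    have hd : ∀ k x, x⁻¹ * f k x ∈ Subgroup.centralizer (W : Set P) := by
      intro k x
      refine Subgroup.mem_centralizer_iff.mpr fun w hw => ?_
      have h1 := hWfix k _ (‹W.Normal›.conj_mem w hw x)
      rw [map_mul, map_mul, map_inv, hWfix k w hw] at h1
      calc w * (x⁻¹ * f k x) = x⁻¹ * (x * w * x⁻¹) * f k x := by group
        _ = x⁻¹ * (f k x * w * (f k x)⁻¹) * f k x := by rw [h1]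
        _ = x⁻¹ * f k x * w := by group
    exact false_of_comm_displacement hK f hnt (fun k l x => hWfix k _ (hCW _ (hd l x)))
      fun k l x => Subgroup.mem_centralizer_iff.mp (hd l x) _ (hCW _ (hd k x))
  -- squares of fixed points
  let W₂ : Subgroup W :=
    { carrier := {y | ∃ w : W, w * w = y}
      one_mem' := ⟨1, one_mul 1⟩
      mul_mem' := by
        rintro _ _ ⟨a, rfl⟩ ⟨b, rfl⟩
        refine ⟨a * b, ?_⟩
        have : b * a = a * b := Subtype.ext (hcen a a.2 b)
        calc a * b * (a * b) = a * (b * a) * b := by group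
          _ = a * a * (b * b) := by rw [this]; group
      inv_mem' := by
        rintro _ ⟨a, rfl⟩
        exact ⟨a⁻¹, by rw [mul_inv_rev]⟩ }
  haveI : W₂.Normal := ⟨fun y hy g => by
    have : g * y = y * g := Subtype.ext (hcen y y.2 g)
    rwa [this, mul_inv_cancel_right]⟩
  letI : CommGroup (P ⧸ W) := { (inferInstance : Group (P ⧸ W)) with
    mul_comm := fun a b => by
      induction a using QuotientGroup.induction_on with
      | H x =>
        induction b using QuotientGroup.induction_on with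
        | H y =>
          rw [← QuotientGroup.mk_mul, ← QuotientGroup.mk_mul, QuotientGroup.eq]
          have h := (hW y).2 x⁻¹
          rw [inv_inv] at h
          simpa [mul_assoc] using h }
  letI : CommGroup (W ⧸ W₂) := { (inferInstance : Group (W ⧸ W₂)) with
    mul_comm := fun a b => by
      induction a using QuotientGroup.induction_on with
      | H x =>
        induction b using QuotientGroup.induction_on with
        | H y =>
          rw [← QuotientGroup.mk_mul, ← QuotientGroup.mk_mul]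
          exact congrArg _ (Subtype.ext (hcen y y.2 x)) }
  letI : Module (ZMod 2) (Additive (P ⧸ W)) := AddCommGroup.zmodModule (fun a => by
    obtain ⟨x, hx⟩ := QuotientGroup.mk_surjective a.toMul
    apply Additive.toMul.injective
    rw [toMul_nsmul, toMul_zero, ← hx, pow_two, ← QuotientGroup.mk_mul, QuotientGroup.eq_one_iff]
    exact (hW x).1)
  letI : Module (ZMod 2) (Additive (W ⧸ W₂)) := AddCommGroup.zmodModule (fun a => by
    obtain ⟨x, hx⟩ := QuotientGroup.mk_surjective a.toMul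
    apply Additive.toMul.injective
    rw [toMul_nsmul, toMul_zero, ← hx, pow_two, ← QuotientGroup.mk_mul, QuotientGroup.eq_one_iff]
    exact ⟨x, rfl⟩)
  haveI : Finite (Additive (P ⧸ W)) := inferInstanceAs (Finite (P ⧸ W))
  haveI : Finite (Additive (W ⧸ W₂)) := inferInstanceAs (Finite (W ⧸ W₂))
  let mkV : P → Additive (P ⧸ W) := fun x => Additive.ofMul (x : P ⧸ W)
  have hsurj : ∀ v, ∃ x, mkV x = v := fun v => by
    obtain ⟨x, hx⟩ := QuotientGroup.mk_surjective v.toMul
    exact ⟨x, by simp [mkV, hx]⟩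
  have hmk : ∀ x y, mkV (x * y) = mkV x + mkV y := fun x y => rfl
  have hmk0 : ∀ x, mkV x = 0 ↔ x ∈ W := fun x => QuotientGroup.eq_one_iff x
  let g : K → ((P ⧸ W) →* (P ⧸ W)) := fun k =>
    QuotientGroup.map W W (f k).toMonoidHom fun x hx =>
      show f k x ∈ W from by rw [hWfix k x hx]; exact hx
  let ρ : K →* Module.End (ZMod 2) (Additive (P ⧸ W)) :=
    { toFun := fun k => AddMonoidHom.toZModLinearMap 2 (MonoidHom.toAdditive (g k))
      map_one' := LinearMap.ext fun v => by
        obtain ⟨x, rfl⟩ := hsurj v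
        show mkV (f 1 x) = mkV x
        rw [map_one]; rfl
      map_mul' := fun k l => LinearMap.ext fun v => by
        obtain ⟨x, rfl⟩ := hsurj v
        show mkV (f (k * l) x) = mkV (f k (f l x))
        rw [map_mul]; rfl }
  have hρ : ∀ k x, ρ k (mkV x) = mkV (f k x) := fun k x => rfl
  let sqW : P → W := fun x => ⟨x * x, (hW x).1⟩
  let mkZ : W → Additive (W ⧸ W₂) := fun x => Additive.ofMul (x : W ⧸ W₂)
  let q : Additive (P ⧸ W) → Additive (W ⧸ W₂) := fun v =>
    Quotient.liftOn' v.toMul (fun x => mkZ (sqW x)) (fun x y hxy => by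
      rw [QuotientGroup.leftRel_apply] at hxy
      show Additive.ofMul ((sqW x : W) : W ⧸ W₂) = Additive.ofMul ((sqW y : W) : W ⧸ W₂)
      refine congrArg _ (QuotientGroup.eq.mpr ⟨⟨_, hxy⟩, Subtype.ext ?_⟩)
      show x⁻¹ * y * (x⁻¹ * y) = (x * x)⁻¹ * (y * y)
      have h := hcen _ hxy x
      obtain ⟨w, rfl⟩ : ∃ w, y = x * w := ⟨x⁻¹ * y, by group⟩
      rw [inv_mul_cancel_left] at h ⊢
      calc w * w = x⁻¹ * (x * w) * w := by rw [inv_mul_cancel_left]
        _ = x⁻¹ * (w * x) * w := by rw [h]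
        _ = (x * x)⁻¹ * (x * w * (x * w)) := by group)
  have hq : ∀ x, q (mkV x) = mkZ (sqW x) := fun x => rfl
  let cW : P → P → W := fun x y => ⟨x⁻¹ * y * x * y⁻¹, (hW x).2 y⟩
  have hcent : ∀ (w : W) (y : P), y * w = w * y := fun w y => hcen w w.2 y
  have hsq : ∀ x y, sqW (x * y) = sqW x * sqW y * cW x y := fun x y => Subtype.ext (by
    show x * y * (x * y) = x * x * (y * y) * (cW x y : P)
    show x * y * (x * y) = x * x * (y * y) * (x⁻¹ * y * x * y⁻¹)
    have h := hcent (cW x y) y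
    change y * (x⁻¹ * y * x * y⁻¹) = (x⁻¹ * y * x * y⁻¹) * y at h
    rw [mul_assoc (x * x), mul_assoc y y, h, ← mul_assoc y, h]
    group)
  have hcl : ∀ x x' y, cW (x * x') y = cW x' y * cW x y := fun x x' y => Subtype.ext (by
    show (x * x')⁻¹ * y * (x * x') * y⁻¹ = (cW x' y : P) * (cW x y : P)
    rw [hcent (cW x y) (cW x' y)]
    calc (x * x')⁻¹ * y * (x * x') * y⁻¹ = x'⁻¹ * (cW x y : P) * y * x' * y⁻¹ := by
          show _ = x'⁻¹ * (x⁻¹ * y * x * y⁻¹) * y * x' * y⁻¹; group
      _ = (cW x y : P) * x'⁻¹ * y * x' * y⁻¹ := by rw [hcent (cW x y) x'⁻¹]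
      _ = (cW x y : P) * (cW x' y : P) := by
          show _ = _ * (x'⁻¹ * y * x' * y⁻¹); group)
  let Bf : Additive (P ⧸ W) → Additive (P ⧸ W) → Additive (W ⧸ W₂) := fun u v =>
    q (u + v) - q u - q v
  have hBf : ∀ x y, Bf (mkV x) (mkV y) = mkZ (cW x y) := fun x y => by
    show q (mkV x + mkV y) - _ - _ = _
    rw [← hmk, hq, hq, hq, hsq]
    show mkZ (sqW x) + mkZ (sqW y) + mkZ (cW x y) - _ - _ = _
    abel
  have hadd : ∀ u u' v, Bf (u + u') v = Bf u v + Bf u' v := fun u u' v => by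
    obtain ⟨x, rfl⟩ := hsurj u
    obtain ⟨x', rfl⟩ := hsurj u'
    obtain ⟨y, rfl⟩ := hsurj v
    rw [← hmk, hBf, hBf, hBf, hcl]
    show mkZ (cW x' y) + mkZ (cW x y) = _
    abel
  have hsymB : ∀ u v, Bf u v = Bf v u := fun u v => by simp only [Bf, add_comm u v]; abel
  let B : Additive (P ⧸ W) →ₗ[ZMod 2] Additive (P ⧸ W) →ₗ[ZMod 2] Additive (W ⧸ W₂) :=
    AddMonoidHom.toZModLinearMap 2 (AddMonoidHom.mk'
      (fun u => AddMonoidHom.toZModLinearMap 2 (AddMonoidHom.mk' (Bf u)
        fun v v' => by rw [hsymB u, hadd, hsymB v, hsymB v']))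
      fun u u' => LinearMap.ext fun v => hadd u u' v)
  obtain ⟨k₁, x₁, hk₁⟩ : ∃ k x, mkV (f k x) ≠ mkV x := by
    by_contra hall
    push Not at hall
    have hd : ∀ k x, x⁻¹ * f k x ∈ W := fun k x => by
      rw [← hmk0, hmk, hall, ← hmk, inv_mul_cancel]
      rfl
    exact false_of_comm_displacement hK f hnt (fun k l x => hWfix k _ (hd l x))
      fun k l x => hcent ⟨_, hd l x⟩ _
  haveI : Finite (Module.End (ZMod 2) (Additive (P ⧸ W))) :=
    Finite.of_injective _ DFunLike.coe_injective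
  refine no_anisotropic (fun M hM => hFT M hM) hK ρ ?_ (k₀ := k₁) (v₀ := mkV x₁) ?_ q B ?_ ?_ ?_
  · intro U hU
    let Q : Subgroup P :=
      { carrier := {x | mkV x ∈ U}
        one_mem' := U.zero_mem
        mul_mem' := fun {a b} ha hb => by show mkV (a * b) ∈ U; rw [hmk]; exact U.add_mem ha hb
        inv_mem' := fun {a} ha => U.neg_mem ha }
    by_cases hQ : Q = ⊤
    · exact Or.inr (eq_top_iff.mpr fun v _ => by
        obtain ⟨x, rfl⟩ := hsurj v
        exact (show x ∈ Q from hQ ▸ Subgroup.mem_top x))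
    · refine Or.inl ((Submodule.eq_bot_iff _).mpr fun v hv => ?_)
      obtain ⟨x, rfl⟩ := hsurj v
      exact (hmk0 x).mpr fun k => hmin Q hQ (fun k y hy => show mkV (f k y) ∈ U from hρ k y ▸ hU k _ hy) k x hv
  · rw [hρ]
    exact hk₁
  · intro u v
    show q (u + v) = q u + q v + Bf u v
    simp only [Bf]; abel
  · intro k v
    obtain ⟨x, rfl⟩ := hsurj v
    rw [hρ, hq, hq]
    refine congrArg mkZ (Subtype.ext ?_)
    show f k x * f k x = x * x
    rw [← map_mul, hWfix k _ (hW x).1]
  · intro v hv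
    obtain ⟨x, rfl⟩ := hsurj v
    rw [hq] at hv
    obtain ⟨w, hw⟩ := (QuotientGroup.eq_one_iff (sqW x)).mp hv
    have hw' : (w : P) * w = x * x := congrArg Subtype.val hw
    have h1 : (x * (w : P)⁻¹) * (x * (w : P)⁻¹) = 1 := by
      have e := hcent w⁻¹ x
      rw [Subgroup.coe_inv] at e
      calc _ = x * ((w : P)⁻¹ * x) * (w : P)⁻¹ := by group
        _ = (x * x) * ((w : P) * w)⁻¹ := by rw [← e]; group
        _ = 1 := by rw [hw', mul_inv_cancel]
    refine (hmk0 x).mpr ?_
    have hx : x * (w : P)⁻¹ ∈ W := fun k => hinvol k _ h1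
    simpa using W.mul_mem hx w.2

/-- **Piece A.** A perfect group of automorphisms of a finite 2-group fixing every involution is
trivial. -/
theorem eq_bot_of_fix_involutions {S : Type u} [Group S] [Finite S] (hS : IsPGroup 2 S)
    (hFT : ∀ (X : Type u) [Group X] [Finite X], Odd (Nat.card X) → Group.IsSolvable X)
    (L : Subgroup (MulAut S)) (hL : commutator L = ⊤)
    (hfix : ∀ k ∈ L, ∀ x : S, x * x = 1 → k x = x) : L = ⊥ := by
  by_contra hne
  obtain ⟨⟨k, hk⟩, hk1⟩ := Subgroup.ne_bot_iff_exists_ne_one.mp hne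
  let Inv : Subgroup S → Prop := fun P => ∀ a ∈ L, ∀ x ∈ P, a x ∈ P
  let Moved : Subgroup S → Prop := fun P => ∃ a ∈ L, ∃ x ∈ P, a x ≠ x
  have htop : Inv ⊤ ∧ Moved ⊤ := by
    refine ⟨fun _ _ _ _ => Subgroup.mem_top _, k, hk, ?_⟩
    by_contra hc
    push Not at hc
    exact hk1 (Subtype.ext (MulEquiv.ext fun x => hc x (Subgroup.mem_top x)))
  obtain ⟨P, ⟨hPinv, hPmoved⟩, hPmin⟩ :=
    (Set.toFinite {P : Subgroup S | Inv P ∧ Moved P}).exists_minimal ⟨⊤, htop⟩
  obtain ⟨a, ha, x, hx, hax⟩ := hPmoved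
  haveI : Finite (MulAut S) := Finite.of_injective _ DFunLike.coe_injective
  let f : L →* MulAut P :=
    { toFun := fun b =>
        { toFun := fun y => ⟨(b : MulAut S) y, hPinv b b.2 y y.2⟩
          invFun := fun y => ⟨((b⁻¹ : L) : MulAut S) y, hPinv _ (b⁻¹).2 y y.2⟩
          left_inv := fun y => Subtype.ext ((b : MulAut S).symm_apply_apply y)
          right_inv := fun y => Subtype.ext ((b : MulAut S).apply_symm_apply y)
          map_mul' := fun y z => Subtype.ext (map_mul (b : MulAut S) (y : S) (z : S)) }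
      map_one' := by ext; rfl
      map_mul' := fun b c => by ext; rfl }
  refine no_minimal (hS.to_subgroup P) hFT hL f (k₀ := ⟨a, ha⟩) (x₀ := ⟨x, hx⟩)
    (fun h => hax (congrArg Subtype.val h))
    (fun b y hy => Subtype.ext (hfix b b.2 y (congrArg Subtype.val hy))) ?_
  intro Q hQ hQinv b y hy
  by_contra hb
  refine hQ (Subgroup.map_injective (Subgroup.subtype_injective P) ?_)
  rw [← MonoidHom.range_eq_map, Subgroup.range_subtype]
  refine le_antisymm (Subgroup.map_subtype_le Q) (hPmin ⟨?_, b, b.2, (y : S), ⟨y, hy, rfl⟩, ?_⟩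
    (Subgroup.map_subtype_le Q))
  · rintro c hc _ ⟨z, hz, rfl⟩
    exact ⟨f ⟨c, hc⟩ z, hQinv ⟨c, hc⟩ z hz, rfl⟩
  · exact fun h => hb (Subtype.ext h)

end Cfsg.Agent.InvFix
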