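import Mathlib.Algebra.Module.ZMod
import Mathlib.GroupTheory.Perm.Cycle.Type
import Mathlib.GroupTheory.GroupAction.Quotient
import Mathlib.LinearAlgebra.Matrix.GeneralLinearGroup.Card
import Mathlib.RingTheory.IntegralDomain
import Mathlib.RingTheory.LittleWedderburn
import Mathlib.Tactic.IntervalCases
import Mathlib.Tactic.Group
import Mathlib.Tactic.NormNum.Prime
import Mathlib.Algebra.GroupWithZero.Action.Units

/-!
Automorphisms of elementary abelian 2-groups: fixed points, restrictions and counting.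
-/

set_option autoImplicit false

namespace Cfsg.Agent.InvFix

variable {E : Type*} [CommGroup E]

/-- The subgroup of fixed points of an automorphism. -/
def fixSub (z : MulAut E) : Subgroup E where
  carrier := {x | z x = x}
  one_mem' := map_one z
  mul_mem' {a b} ha hb := by show z (a * b) = a * b; rw [map_mul, ha, hb]
  inv_mem' {a} ha := by show z a⁻¹ = a⁻¹; rw [map_inv, ha]

theorem mem_fixSub {z : MulAut E} {x : E} : x ∈ fixSub z ↔ z x = x := Iff.rfl

/-- The automorphisms preserving a subgroup. -/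
def invSub (Q : Subgroup E) : Subgroup (MulAut E) where
  carrier := {a | ∀ x, a x ∈ Q ↔ x ∈ Q}
  one_mem' _ := Iff.rfl
  mul_mem' {a b} ha hb x := by rw [MulAut.mul_apply, ha, hb]
  inv_mem' {a} ha x := by
    conv_rhs => rw [← MulEquiv.apply_symm_apply a x]
    exact (ha _).symm

theorem mem_invSub_of_maps_to [Finite E] {Q : Subgroup E} {a : MulAut E} (h : ∀ x ∈ Q, a x ∈ Q) :
    a ∈ invSub Q := by
  intro x
  refine ⟨fun hx => ?_, h x⟩
  have hs : Function.Surjective (fun y : Q => (⟨a y, h y y.2⟩ : Q)) :=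
    Finite.injective_iff_surjective.mp fun u v huv =>
      Subtype.ext (a.injective (congrArg Subtype.val huv))
  obtain ⟨y, hy⟩ := hs ⟨a x, hx⟩
  rw [← a.injective (congrArg Subtype.val hy)]
  exact y.2

/-- Restriction to a preserved subgroup. -/
def restrictAut (Q : Subgroup E) : invSub Q →* MulAut Q where
  toFun a :=
    { toFun := fun y => ⟨(a : MulAut E) y, ((a.2 y).mpr y.2)⟩
      invFun := fun y => ⟨((a⁻¹ : invSub Q) : MulAut E) y, (((a⁻¹).2 y).mpr y.2)⟩
      left_inv := fun y => Subtype.ext ((a : MulAut E).symm_apply_apply y)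
      right_inv := fun y => Subtype.ext ((a : MulAut E).apply_symm_apply y)
      map_mul' := fun y z => Subtype.ext (map_mul (a : MulAut E) (y : E) (z : E)) }
  map_one' := by ext; rfl
  map_mul' _ _ := by ext; rfl

theorem restrictAut_apply (Q : Subgroup E) (a : invSub Q) (y : Q) :
    ((restrictAut Q a y : Q) : E) = (a : MulAut E) y := rfl

/-- The action on the quotient by a preserved subgroup. -/
def quotAut (Q : Subgroup E) : invSub Q →* MulAut (E ⧸ Q) where
  toFun a :=
    QuotientGroup.congr Q Q (a : MulAut E) (by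
      ext x
      constructor
      · rintro ⟨y, hy, rfl⟩
        exact (a.2 y).mpr hy
      · intro hx
        exact ⟨(a : MulAut E).symm x, ((a⁻¹).2 x).mpr hx, (a : MulAut E).apply_symm_apply x⟩)
  map_one' := by
    ext x
    induction x using QuotientGroup.induction_on with
    | H y => rfl
  map_mul' _ _ := by
    ext x
    induction x using QuotientGroup.induction_on with
    | H y => rfl

theorem quotAut_mk (Q : Subgroup E) (a : invSub Q) (y : E) :
    quotAut Q a (y : E ⧸ Q) = ((a : MulAut E) y : E ⧸ Q) := rfl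

theorem inv_eq_self (hE : ∀ x : E, x * x = 1) (x : E) : x⁻¹ = x :=
  inv_eq_of_mul_eq_one_right (hE x)

theorem mul_self_of_subgroup (hE : ∀ x : E, x * x = 1) (Q : Subgroup E) (x : Q) : x * x = 1 :=
  Subtype.ext (hE x)

variable [Finite E]

theorem exists_card_eq_two_pow (hE : ∀ x : E, x * x = 1) {k : ℕ} (hk : Nat.card E = 2 ^ k)
    (Q : Subgroup E) : ∃ j ≤ k, Nat.card Q = 2 ^ j := by
  have h := Subgroup.card_subgroup_dvd_card Q
  rw [hk] at h
  exact (Nat.dvd_prime_pow Nat.prime_two).mp h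

/-- Fixed points modulo a prime. -/
theorem card_modEq_fix {r n : ℕ} [hr : Fact r.Prime] {z : MulAut E} (hz : z ^ r ^ n = 1)
    {Q : Subgroup E} (hQ : ∀ x ∈ Q, z x ∈ Q) :
    Nat.card Q ≡ Nat.card ↥(Q ⊓ fixSub z) [MOD r] := by
  classical
  haveI := Fintype.ofFinite Q
  let f : Function.End Q := fun y => ⟨z y, hQ y y.2⟩
  have hpow : ∀ (m : ℕ) (y : Q), (((f ^ m) y : Q) : E) = (z ^ m) y := by
    intro m
    induction m with
    | zero => intro y; rfl
    | succ m ih =>
      intro y
      rw [pow_succ', pow_succ']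
      show z ((f ^ m) y : E) = z ((z ^ m) y)
      rw [ih]
  have hf : f ^ r ^ n = 1 := funext fun y => Subtype.ext (by rw [hpow, hz]; rfl)
  have h := Equiv.Perm.card_fixedPoints_modEq hf
  rw [← Nat.card_eq_fintype_card, ← Nat.card_eq_fintype_card] at h
  refine h.trans (congrArg (· % r) (Nat.card_congr ?_))
  exact
    { toFun := fun y => ⟨(y.1 : E), y.1.2, congrArg Subtype.val y.2⟩
      invFun := fun y => ⟨⟨(y : E), y.2.1⟩, Subtype.ext y.2.2⟩
      left_inv := fun y => rfl
      right_inv := fun y => rfl }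

/-- A set on which a group acts freely has size divisible by its order. -/
theorem card_dvd_of_free {H : Subgroup (MulAut E)} (s : Set E) (hs : ∀ a ∈ H, ∀ x ∈ s, a x ∈ s)
    (hfree : ∀ a ∈ H, ∀ x ∈ s, a x = x → a = 1) : Nat.card H ∣ Nat.card s := by
  classical
  haveI : Finite s := inferInstance
  letI : MulAction H s :=
    { smul := fun a x => ⟨(a : MulAut E) x, hs a a.2 x x.2⟩
      one_smul := fun x => rfl
      mul_smul := fun a b x => rfl }
  have hst : ∀ x : s, MulAction.stabilizer H x = ⊥ := fun x => by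
    rw [Subgroup.eq_bot_iff_forall]
    exact fun a ha => Subtype.ext (hfree a a.2 x x.2 (congrArg Subtype.val ha))
  haveI := Fintype.ofFinite (Quotient (MulAction.orbitRel H s))
  rw [Nat.card_congr (MulAction.selfEquivSigmaOrbitsQuotientStabilizer H s), Nat.card_sigma]
  refine Finset.dvd_sum fun ω _ => ?_
  rw [hst]
  exact dvd_of_eq (Nat.card_congr QuotientGroup.quotientBot.toEquiv).symm

/-- The orbit of a point under a power of a prime. -/
theorem exists_pow_apply {Q : Type*} [Group Q] [Finite Q] (hQ : Nat.card Q = 8) {w : MulAut Q}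
    {e : ℕ} (hw : w ^ 7 ^ e = 1) (hfpf : ∀ x, w x = x → x = 1) :
    ∀ x₀ : Q, x₀ ≠ 1 → ∀ x : Q, x ≠ 1 → ∃ i : ℕ, (w ^ i) x₀ = x := by
  classical
  intro x₀ hx₀
  have hne : ∀ i : ℕ, (w ^ i) x₀ ≠ 1 := fun i h => hx₀ ((w ^ i).injective (by rw [h, map_one]))
  have hinj : Function.Injective fun i : Fin 7 => (⟨(w ^ (i : ℕ)) x₀, hne i⟩ : {x : Q // x ≠ 1}) := by
    intro i j hij
    have hij' : (w ^ (i : ℕ)) x₀ = (w ^ (j : ℕ)) x₀ := congrArg Subtype.val hij
    by_contra hne'
    wlog hlt : i < j generalizing i j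
    · exact this hij.symm hij'.symm (Ne.symm hne') (lt_of_le_of_ne (not_lt.mp hlt) (Ne.symm hne'))
    obtain ⟨d, hd⟩ : ∃ d, (j : ℕ) = i + d := Nat.exists_eq_add_of_le hlt.le
    have hd0 : d ≠ 0 ∧ d < 7 := ⟨fun h => by have := (Fin.lt_def.mp hlt); omega, by omega⟩
    rw [hd, pow_add, MulAut.mul_apply] at hij'
    have hfix : (w ^ d) x₀ = x₀ := ((w ^ (i : ℕ)).injective hij').symm
    have hcop : d.Coprime (orderOf w) := by
      refine Nat.Coprime.coprime_dvd_right (orderOf_dvd_of_pow_eq_one hw) (Nat.Coprime.pow_right e ?_)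
      exact ((by norm_num : Nat.Prime 7).coprime_iff_not_dvd.mpr
        fun h => by have := Nat.le_of_dvd (by omega) h; omega).symm
    obtain ⟨m, hm⟩ := exists_pow_eq_self_of_coprime hcop
    refine hx₀ (hfpf x₀ ?_)
    rw [← hm]
    clear hm
    induction m with
    | zero => rfl
    | succ m ih => rw [pow_succ, MulAut.mul_apply, hfix, ih]
  have hcard : Nat.card {x : Q // x ≠ 1} = 7 := by
    haveI := Fintype.ofFinite Q
    rw [Nat.card_eq_fintype_card] at hQ ⊢
    simp [Fintype.card_subtype_compl, hQ]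
  have hbij := (Nat.bijective_iff_injective_and_card _).mpr ⟨hinj, by rw [hcard, Nat.card_fin]⟩
  intro x hx
  obtain ⟨i, hi⟩ := hbij.2 ⟨x, hx⟩
  exact ⟨i, congrArg Subtype.val hi⟩

/-- The centraliser of a fixed-point-free element of 7-power order on a group of order 8. -/
theorem exists_eq_pow {Q : Type*} [Group Q] [Finite Q] (hQ : Nat.card Q = 8) {w a : MulAut Q}
    {e : ℕ} (hw : w ^ 7 ^ e = 1) (hfpf : ∀ x, w x = x → x = 1) (hcomm : a * w = w * a) :
    ∃ i : ℕ, a = w ^ i := by
  haveI : Nontrivial Q := Finite.one_lt_card_iff_nontrivial.mp (by omega)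
  obtain ⟨x₀, hx₀⟩ := exists_ne (1 : Q)
  have key := exists_pow_apply hQ hw hfpf x₀ hx₀
  obtain ⟨i, hi⟩ := key (a x₀) (fun h => hx₀ (a.injective (by rw [h, map_one])))
  refine ⟨i, MulEquiv.ext fun x => ?_⟩
  by_cases hx : x = 1
  · simp [hx]
  obtain ⟨j, rfl⟩ := key x hx
  rw [show a ((w ^ j) x₀) = (a * w ^ j) x₀ from rfl,
    (Commute.pow_right hcomm j : Commute a (w ^ j)).eq, MulAut.mul_apply,
    ← hi, ← MulAut.mul_apply, ← MulAut.mul_apply, ← pow_add, ← pow_add, add_comm]

end Cfsg.Agent.InvFix
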