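import Cfsg.Agent.InvFix.SixLemmas

/-!
The case of a Sylow 7-subgroup of order 7.
-/

set_option autoImplicit false
set_option maxHeartbeats 2000000

namespace Cfsg.Agent.InvFix

open scoped commutatorElement

variable {E : Type*} [CommGroup E] [Finite E]

theorem card_ne_one (A : Type*) [Group A] [Finite A] :
    Nat.card {x : A // x ≠ 1} = Nat.card A - 1 := by
  classical
  haveI := Fintype.ofFinite A
  rw [Nat.card_eq_fintype_card, Nat.card_eq_fintype_card]
  simp [Fintype.card_subtype_compl]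

/-- The subgroup generated by three elements of an elementary abelian group. -/
def tri (x y w : E) : Subgroup E :=
  (MonoidHom.coprod (MonoidHom.coprod (Subgroup.zpowers x).subtype (Subgroup.zpowers y).subtype)
    (Subgroup.zpowers w).subtype).range

theorem mem_tri (x y w : E) : x ∈ tri x y w ∧ y ∈ tri x y w ∧ w ∈ tri x y w :=
  ⟨⟨((⟨x, Subgroup.mem_zpowers x⟩, 1), 1), by simp⟩, ⟨((1, ⟨y, Subgroup.mem_zpowers y⟩), 1), by simp⟩,
    ⟨((1, 1), ⟨w, Subgroup.mem_zpowers w⟩), by simp⟩⟩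

theorem tri_le {x y w : E} {Q : Subgroup E} (hx : x ∈ Q) (hy : y ∈ Q) (hw : w ∈ Q) :
    tri x y w ≤ Q := by
  rintro _ ⟨⟨⟨a, b⟩, c⟩, rfl⟩
  exact Q.mul_mem (Q.mul_mem (Subgroup.zpowers_le.mpr hx a.2) (Subgroup.zpowers_le.mpr hy b.2))
    (Subgroup.zpowers_le.mpr hw c.2)

theorem card_tri_le (hE : ∀ x : E, x * x = 1) (x y w : E) : Nat.card (tri x y w) ≤ 8 := by
  have h2 : ∀ t : E, Nat.card (Subgroup.zpowers t) ≤ 2 := fun t => by
    rw [Nat.card_zpowers]
    exact Nat.le_of_dvd two_pos (orderOf_dvd_of_pow_eq_one (by rw [pow_two]; exact hE t))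
  refine (Nat.card_le_card_of_surjective _ (MonoidHom.rangeRestrict_surjective
    (MonoidHom.coprod (MonoidHom.coprod (Subgroup.zpowers x).subtype (Subgroup.zpowers y).subtype)
      (Subgroup.zpowers w).subtype))).trans ?_
  rw [Nat.card_prod, Nat.card_prod, show (8 : ℕ) = 2 * 2 * 2 from rfl]
  exact Nat.mul_le_mul (Nat.mul_le_mul (h2 x) (h2 y)) (h2 w)

theorem pow_seven {z : MulAut E} (hz : z ^ 7 = 1) : z ^ 7 ^ 1 = 1 := by rw [pow_one]; exact hz

/-- Both cubic factors of the minimal polynomial occur. -/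
theorem eq_bot_of_split (hE : ∀ x : E, x * x = 1) (hk : Nat.card E = 2 ^ 6)
    {D : Subgroup (MulAut E)} (hD : commutator D = ⊤) {z : MulAut E} (hz7 : z ^ 7 = 1)
    (hfpf : ∀ x, z x = x → x = 1) (hDz : ∀ d ∈ D, d * z = z * d)
    (f g : E →* E) (hfz : ∀ x, f (z x) = z (f x)) (hgz : ∀ x, g (z x) = z (g x))
    (hfd : ∀ d ∈ D, ∀ x, f (d x) = d (f x)) (hgd : ∀ d ∈ D, ∀ x, g (d x) = d (g x))
    (hfg : ∀ x, f (g x) = 1) (hdisj : ∀ x, f x = 1 → g x = 1 → x = 1)
    (hf : f.ker ≠ ⊤) (hg : g.ker ≠ ⊤) : D = ⊥ := by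
  have hz1 := pow_seven hz7
  have hAne : f.ker ≠ ⊥ := fun h => hg (((Subgroup.eq_top_iff' _).mpr) fun x =>
    MonoidHom.mem_ker.mpr (Subgroup.mem_bot.mp (h ▸ MonoidHom.mem_ker.mpr (hfg x))))
  have hBne : g.ker ≠ ⊥ := fun h => hf (((Subgroup.eq_top_iff' _).mpr) fun x => by
    obtain ⟨y, rfl⟩ := Finite.injective_iff_surjective.mp ((MonoidHom.ker_eq_bot_iff g).mp h) x
    exact MonoidHom.mem_ker.mpr (hfg y))
  have hzinv : ∀ h : E →* E, (∀ x, h (z x) = z (h x)) → ∀ x ∈ h.ker, z x ∈ h.ker := fun h hh x hx =>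
    MonoidHom.mem_ker.mpr (by rw [hh, MonoidHom.mem_ker.mp hx, map_one])
  have hdinv : ∀ h : E →* E, (∀ d ∈ D, ∀ x, h (d x) = d (h x)) → D ≤ invSub h.ker := fun h hh d hd =>
    mem_invSub_of_maps_to fun x hx =>
      MonoidHom.mem_ker.mpr (by rw [hh d hd, MonoidHom.mem_ker.mp hx, map_one])
  have h8 : ∀ h : E →* E, (∀ x, h (z x) = z (h x)) → h.ker ≠ ⊥ → h.ker ≠ ⊤ → Nat.card h.ker = 8 := by
    intro h hh h1 h2
    rcases card_cases hE hk hz1 (hzinv h hh) (fun x _ => hfpf x) with hc | hc | hc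
    · exact absurd (Subgroup.eq_bot_of_card_eq _ hc) h1
    · exact hc
    · exact absurd hc h2
  have hA := h8 f hfz hAne hf
  have hB := h8 g hgz hBne hg
  have hDR : D ≤ Subgroup.normalizer ((Subgroup.zpowers z : Subgroup (MulAut E)) : Set (MulAut E)) :=
    fun d hd => Subgroup.centralizer_le_normalizer _ (Subgroup.mem_centralizer_iff.mpr fun t ht => by
      obtain ⟨i, rfl⟩ := Subgroup.mem_zpowers_iff.mp ht
      exact (Commute.zpow_right (hDz d hd) i).eq.symm)
  have hcomm : ∀ a ∈ Subgroup.zpowers z, ∀ b ∈ Subgroup.zpowers z, a * b = b * a := by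
    intro a ha b hb
    obtain ⟨i, rfl⟩ := Subgroup.mem_zpowers_iff.mp ha
    obtain ⟨j, rfl⟩ := Subgroup.mem_zpowers_iff.mp hb
    rw [← zpow_add, ← zpow_add, add_comm]
  have htriv : ∀ h : E →* E, (∀ x, h (z x) = z (h x)) → (∀ d ∈ D, ∀ x, h (d x) = d (h x)) →
      Nat.card h.ker = 8 → ∀ d ∈ D, ∀ x ∈ h.ker, d x = x := fun h hh hd' hc =>
    trivial_on_eight hc hD (hdinv h hd')
      (Subgroup.zpowers_le.mpr (mem_invSub_of_maps_to (hzinv h hh))) hcomm hDR
      (Subgroup.mem_zpowers z) hz1 (fun x _ => hfpf x)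
  have hbij : Function.Bijective fun p : f.ker × g.ker => (p.1 : E) * (p.2 : E) := by
    refine (Nat.bijective_iff_injective_and_card _).mpr ⟨fun p p' h => ?_, by
      rw [Nat.card_prod, hA, hB, hk]; rfl⟩
    simp only at h
    have h' : ((p.1 : E))⁻¹ * (p'.1 : E) = (p.2 : E) * ((p'.2 : E))⁻¹ := by
      rw [inv_mul_eq_iff_eq_mul, ← mul_assoc, h, mul_inv_cancel_right]
    have h1 : (p.2 : E) * ((p'.2 : E))⁻¹ = 1 := hdisj _
      (MonoidHom.mem_ker.mp (h' ▸ f.ker.mul_mem (f.ker.inv_mem p.1.2) p'.1.2))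
      (MonoidHom.mem_ker.mp (g.ker.mul_mem p.2.2 (g.ker.inv_mem p'.2.2)))
    rw [h1, inv_mul_eq_one] at h'
    exact Prod.ext (Subtype.ext h') (Subtype.ext (mul_inv_eq_one.mp h1))
  rw [Subgroup.eq_bot_iff_forall]
  intro d hd
  refine MulEquiv.ext fun x => ?_
  obtain ⟨⟨a, b⟩, rfl⟩ := hbij.2 x
  simp only [map_mul, htriv f hfz hfd hA d hd a a.2, htriv g hgz hgd hB d hd b b.2,
    MulAut.one_apply]

/-- The case of nine invariant lines. -/
theorem le_of_lines (hE : ∀ x : E, x * x = 1) (hk : Nat.card E = 2 ^ 6) {Y D : Subgroup (MulAut E)}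
    (hY : TransNonOne Y) (hD : commutator D = ⊤) (hDY : D ≤ Subgroup.normalizer (Y : Set (MulAut E)))
    {z : MulAut E} (hz7 : z ^ 7 = 1) (hfpf : ∀ x, z x = x → x = 1)
    (hDz : ∀ d ∈ D, d * z = z * d)
    (hrel : ∀ (Q : Subgroup E) (x : E), x ∈ Q → z x ∈ Q → z (z x) ∈ Q → z (z (z x)) ∈ Q) :
    D ≤ Y := by
  classical
  have hz1 := pow_seven hz7
  let line : E → Subgroup E := fun x => tri x (z x) (z (z x))
  have hmem : ∀ x, x ∈ line x := fun x => (mem_tri _ _ _).1
  have hzline : ∀ x, ∀ y ∈ line x, z y ∈ line x := by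
    intro x y hy
    have hle : line x ≤ (line x).comap z.toMonoidHom := by
      obtain ⟨a, b, c⟩ := mem_tri x (z x) (z (z x))
      exact tri_le b c (hrel _ x a b c)
    exact hle hy
  have hline8 : ∀ x, x ≠ 1 → Nat.card (line x) = 8 := by
    intro x hx
    rcases card_cases hE hk hz1 (hzline x) (fun y _ => hfpf y) with h | h | h
    · exact absurd (Subgroup.mem_bot.mp (Subgroup.eq_bot_of_card_eq _ h ▸ hmem x)) hx
    · exact h
    · have hle : Nat.card (line x) ≤ 8 := card_tri_le hE _ _ _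
      rw [h, Subgroup.card_top, hk] at hle
      norm_num at hle
  have hline_eq : ∀ x y, x ≠ 1 → y ≠ 1 → y ∈ line x → line y = line x := by
    intro x y hx hy hyx
    refine Subgroup.eq_of_le_of_card_ge (tri_le hyx (hzline x y hyx) (hzline x _ (hzline x y hyx))) ?_
    rw [hline8 x hx, hline8 y hy]
  let L := {Q : Subgroup E // ∃ x, x ≠ 1 ∧ line x = Q}
  have hDline : ∀ d : D, ∀ x, (line x).map (d : MulAut E).toMonoidHom = line ((d : MulAut E) x) := by
    intro d x
    have hc : ∀ y, (d : MulAut E) (z y) = z ((d : MulAut E) y) := fun y =>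
      DFunLike.congr_fun (hDz d d.2) y
    refine le_antisymm ?_ ?_
    · rw [Subgroup.map_le_iff_le_comap]
      obtain ⟨a, b, c⟩ := mem_tri ((d : MulAut E) x) (z ((d : MulAut E) x))
        (z (z ((d : MulAut E) x)))
      refine tri_le a ?_ ?_
      · show (d : MulAut E) (z x) ∈ line ((d : MulAut E) x)
        rw [hc]; exact b
      · show (d : MulAut E) (z (z x)) ∈ line ((d : MulAut E) x)
        rw [hc, hc]; exact c
    · obtain ⟨a, b, c⟩ := mem_tri x (z x) (z (z x))
      refine tri_le ⟨x, a, rfl⟩ ?_ ?_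
      · exact ⟨z x, b, hc x⟩
      · exact ⟨z (z x), c, by show (d : MulAut E) (z (z x)) = _; rw [hc, hc]⟩
  letI : MulAction D L :=
    { smul := fun d q => ⟨q.1.map (d : MulAut E).toMonoidHom, by
        obtain ⟨x, hx, hq⟩ := q.2
        exact ⟨(d : MulAut E) x, fun h => hx ((d : MulAut E).injective (by rw [h, map_one])),
          by rw [← hDline, hq]⟩⟩
      one_smul := fun q => Subtype.ext (Subgroup.map_id q.1)
      mul_smul := fun a b q => Subtype.ext (by
        show q.1.map ((a : MulAut E).toMonoidHom.comp (b : MulAut E).toMonoidHom) =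
          (q.1.map (b : MulAut E).toMonoidHom).map (a : MulAut E).toMonoidHom
        exact (Subgroup.map_map _ _ _).symm) }
  have hsmul : ∀ (d : D) (q : L), ((d • q : L) : Subgroup E) = q.1.map (d : MulAut E).toMonoidHom :=
    fun d q => rfl
  -- nine lines
  have hL9 : Nat.card L = 9 := by
    haveI := Fintype.ofFinite L
    let e : (Σ q : L, {x : q.1 // x ≠ 1}) → {x : E // x ≠ 1} := fun p =>
      ⟨(p.2.1 : E), fun h => p.2.2 (Subtype.ext h)⟩
    have hinj : Function.Injective e := by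
      rintro ⟨q, x, hx⟩ ⟨q', x', hx'⟩ h
      have h' : (x : E) = x' := congrArg Subtype.val h
      obtain ⟨y, hy, hq⟩ := q.2
      obtain ⟨y', hy', hq'⟩ := q'.2
      have hxne : (x : E) ≠ 1 := fun he => hx (Subtype.ext he)
      have hx1 : (x : E) ∈ line y := by rw [hq]; exact x.2
      have hx2 : (x : E) ∈ line y' := by rw [hq', h']; exact x'.2
      have : q = q' := Subtype.ext (by
        rw [← hq, ← hq', ← hline_eq y x hy hxne hx1, hline_eq y' x hy' hxne hx2])
      subst this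
      obtain rfl : x = x' := Subtype.ext h'
      rfl
    have hsurj : Function.Surjective e := fun x =>
      ⟨⟨⟨line x.1, x.1, x.2, rfl⟩, ⟨⟨x.1, hmem _⟩, fun h => x.2 (congrArg Subtype.val h)⟩⟩, rfl⟩
    have h := Nat.card_congr (Equiv.ofBijective e ⟨hinj, hsurj⟩)
    rw [Nat.card_sigma, card_ne_one, hk] at h
    rw [Finset.sum_congr rfl (fun (q : L) _ => show Nat.card {x : q.1 // x ≠ 1} = 7 by
      obtain ⟨y, hy, hq⟩ := q.2
      rw [card_ne_one, ← hq, hline8 y hy])] at h
    rw [Finset.sum_const, smul_eq_mul, Finset.card_univ, ← Nat.card_eq_fintype_card] at h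
    omega
  haveI : Finite L := Nat.finite_of_card_ne_zero (by rw [hL9]; norm_num)
  -- the stabiliser of a line
  have hstab_inv : ∀ (q : L) (d : D), d • q = q → (d : MulAut E) ∈ invSub q.1 := fun q d h =>
    mem_invSub_of_maps_to fun x hx => ((hsmul d q).symm.trans (congrArg Subtype.val h)).le ⟨x, hx, rfl⟩
  have hqz : ∀ q : L, z ∈ invSub q.1 := fun q => by
    obtain ⟨x, -, hq⟩ := q.2
    exact mem_invSub_of_maps_to fun y hy => hq ▸ hzline x y (hq.symm ▸ hy)
  have hq8 : ∀ q : L, Nat.card q.1 = 8 := fun q => by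
    obtain ⟨x, hx, hq⟩ := q.2
    rw [← hq, hline8 x hx]
  have hquot8 : ∀ q : L, Nat.card (E ⧸ q.1) = 8 := fun q => by
    have h := Subgroup.card_eq_card_quotient_mul_card_subgroup q.1
    rw [hk, hq8] at h
    norm_num at h
    omega
  have hw7 : ∀ q : L, (restrictAut q.1 ⟨z, hqz q⟩) ^ 7 ^ 1 = 1 ∧
      (quotAut q.1 ⟨z, hqz q⟩) ^ 7 ^ 1 = 1 := fun q => by
    have h : (⟨z, hqz q⟩ : invSub q.1) ^ 7 ^ 1 = 1 := Subtype.ext hz1
    rw [← map_pow, ← map_pow, h, map_one, map_one]
    exact ⟨rfl, rfl⟩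
  have hrf : ∀ q : L, ∀ x, restrictAut q.1 ⟨z, hqz q⟩ x = x → x = 1 := fun q x h =>
    Subtype.ext (hfpf x (congrArg Subtype.val h))
  have hqf : ∀ q : L, ∀ x, quotAut q.1 ⟨z, hqz q⟩ x = x → x = 1 := by
    intro q x h
    induction x using QuotientGroup.induction_on with
    | H y =>
      rw [quotAut_mk, QuotientGroup.eq] at h
      let δ : q.1 → q.1 := fun l => ⟨(z l)⁻¹ * (l : E),
        q.1.mul_mem (q.1.inv_mem ((hqz q (l : E)).mpr l.2)) l.2⟩
      have hinj : Function.Injective δ := fun l l' hl => by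
        have h1 : (z (l : E))⁻¹ * (l : E) = (z (l' : E))⁻¹ * (l' : E) := congrArg Subtype.val hl
        refine Subtype.ext (mul_inv_eq_one.mp (hfpf _ ?_))
        rw [map_mul, map_inv]
        calc z (l : E) * (z (l' : E))⁻¹
            = z (l : E) * ((z (l' : E))⁻¹ * (l' : E)) * (l' : E)⁻¹ := by group
          _ = _ := by rw [← h1]; group
      obtain ⟨l, hl⟩ := Finite.injective_iff_surjective.mp hinj ⟨_, h⟩
      have h1 : (z (l : E))⁻¹ * (l : E) = (z y)⁻¹ * y := congrArg Subtype.val hl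
      have hyl : y = l := by
        refine mul_inv_eq_one.mp (hfpf _ ?_)
        rw [map_mul, map_inv]
        calc z y * (z (l : E))⁻¹ = z y * ((z (l : E))⁻¹ * (l : E)) * (l : E)⁻¹ := by group
          _ = _ := by rw [h1]; group
      exact (QuotientGroup.eq_one_iff y).mpr (hyl ▸ l.2)
  have hpowR : ∀ (q : L) (d : D) (h : d • q = q), ∃ i : ℕ,
      restrictAut q.1 ⟨d, hstab_inv q d h⟩ = restrictAut q.1 ⟨z, hqz q⟩ ^ i := fun q d h =>
    exists_eq_pow (hq8 q) (hw7 q).1 (hrf q) (by
      rw [← map_mul, ← map_mul]; exact congrArg _ (Subtype.ext (hDz d d.2)))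
  have hpowQ : ∀ (q : L) (d : D) (h : d • q = q), ∃ i : ℕ,
      quotAut q.1 ⟨d, hstab_inv q d h⟩ = quotAut q.1 ⟨z, hqz q⟩ ^ i := fun q d h =>
    exists_eq_pow (hquot8 q) (hw7 q).2 (hqf q) (by
      rw [← map_mul, ← map_mul]; exact congrArg _ (Subtype.ext (hDz d d.2)))
  -- elements of the stabiliser have order dividing 14
  have hexp : ∀ (q : L) (d : D), d • q = q → d ^ 14 = 1 := by
    intro q d h
    refine Subtype.ext (MulEquiv.ext fun x => ?_)
    obtain ⟨i, hi⟩ := hpowR q d h
    obtain ⟨j, hj⟩ := hpowQ q d h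
    have h1 : ∀ l ∈ q.1, ((d : MulAut E) ^ 7) l = l := fun l hl => by
      have he : restrictAut q.1 ⟨d, hstab_inv q d h⟩ ^ 7 = 1 := by
        rw [hi, ← pow_mul, mul_comm, pow_mul, show (7 : ℕ) = 7 ^ 1 from rfl, (hw7 q).1, one_pow]
      rw [← map_pow] at he
      exact congrArg Subtype.val (DFunLike.congr_fun he ⟨l, hl⟩)
    have h2 : (((d : MulAut E) ^ 7) x)⁻¹ * x ∈ q.1 := by
      have he : quotAut q.1 ⟨d, hstab_inv q d h⟩ ^ 7 = 1 := by
        rw [hj, ← pow_mul, mul_comm, pow_mul, show (7 : ℕ) = 7 ^ 1 from rfl, (hw7 q).2, one_pow]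
      rw [← map_pow] at he
      exact QuotientGroup.eq.mp (DFunLike.congr_fun he (x : E ⧸ q.1))
    have h3 := h1 _ h2
    rw [map_mul, map_inv, inv_eq_self hE, inv_eq_self hE] at h3
    show ((d : MulAut E) ^ 14) x = x
    rw [show (14 : ℕ) = 7 + 7 from rfl, pow_add, MulAut.mul_apply]
    calc _ = ((d : MulAut E) ^ 7) (((d : MulAut E) ^ 7) x) * ((d : MulAut E) ^ 7) x
          * ((d : MulAut E) ^ 7) x := by rw [mul_assoc, hE, mul_one]
      _ = ((d : MulAut E) ^ 7) x * x * ((d : MulAut E) ^ 7) x := by rw [h3]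
      _ = x * (((d : MulAut E) ^ 7) x * ((d : MulAut E) ^ 7) x) := by ac_rfl
      _ = x := by rw [hE, mul_one]
  -- perfect subgroups of a stabiliser are trivial
  have hperfstab : ∀ (q : L) (K : Subgroup D), commutator K = ⊤ → (∀ d ∈ K, d • q = q) → K = ⊥ := by
    intro q K hK hKq
    let incl : K →* invSub q.1 :=
      { toFun := fun d => ⟨((d : D) : MulAut E), hstab_inv q d (hKq d d.2)⟩
        map_one' := rfl
        map_mul' := fun _ _ => rfl }
    have h1 : ∀ d, (restrictAut q.1).comp incl d = 1 := hom_eq_one_of_comm hK _ fun a b => by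
      obtain ⟨i, hi⟩ := hpowR q a (hKq a a.2)
      obtain ⟨j, hj⟩ := hpowR q b (hKq b b.2)
      show restrictAut q.1 (incl a) * restrictAut q.1 (incl b) = _
      simp only [incl, MonoidHom.coe_mk, OneHom.coe_mk, MonoidHom.comp_apply]
      rw [hi, hj, ← pow_add, ← pow_add, add_comm]
    have h2 : ∀ d, (quotAut q.1).comp incl d = 1 := hom_eq_one_of_comm hK _ fun a b => by
      obtain ⟨i, hi⟩ := hpowQ q a (hKq a a.2)
      obtain ⟨j, hj⟩ := hpowQ q b (hKq b b.2)
      simp only [incl, MonoidHom.coe_mk, OneHom.coe_mk, MonoidHom.comp_apply]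
      rw [hi, hj, ← pow_add, ← pow_add, add_comm]
    have hl : ∀ (d : K) (x : E), ((d : D) : MulAut E) x * x ∈ q.1 := fun d x => by
      have := QuotientGroup.eq.mp (DFunLike.congr_fun (h2 d) (x : E ⧸ q.1))
      rw [inv_eq_self hE] at this
      exact this
    have hfix : ∀ (d : K) (l : E), l ∈ q.1 → ((d : D) : MulAut E) l = l := fun d l hlq => by
      have := congrArg Subtype.val (DFunLike.congr_fun (h1 d) (⟨l, hlq⟩ : q.1))
      exact this
    have key : ∀ (a b : K) (x : E), ((a : D) : MulAut E) (((b : D) : MulAut E) x)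
        = ((a : D) : MulAut E) x * ((b : D) : MulAut E) x * x := fun a b x => by
      conv_lhs => rw [show ((b : D) : MulAut E) x = x * (((b : D) : MulAut E) x * x) by
        rw [mul_left_comm, hE, mul_one], map_mul, hfix a _ (hl b x)]
      rw [mul_assoc]
    refine eq_bot_of_perfect_comm hK fun a ha b hb => Subtype.ext (MulEquiv.ext fun x => ?_)
    show (a : MulAut E) ((b : MulAut E) x) = (b : MulAut E) ((a : MulAut E) x)
    rw [key ⟨a, ha⟩ ⟨b, hb⟩, key ⟨b, hb⟩ ⟨a, ha⟩]
    ac_rfl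
  -- a fixed line
  by_cases hfix : ∃ q : L, ∀ d : D, d • q = q
  · obtain ⟨q, hq⟩ := hfix
    have h := hperfstab q ⊤ (by
      have := congrArg (Subgroup.map (Subgroup.topEquiv (G := D)).symm.toMonoidHom) hD
      rwa [commutator_def, Subgroup.map_commutator,
        Subgroup.map_top_of_surjective _ (MulEquiv.surjective _), ← commutator_def] at this)
      fun d _ => hq d
    intro d hd
    have : (⟨d, hd⟩ : D) = 1 := Subgroup.mem_bot.mp (h ▸ Subgroup.mem_top _)
    rw [show d = 1 from congrArg Subtype.val this]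
    exact Y.one_mem
  push Not at hfix
  have hbig : ∀ q : L, 5 ≤ (MulAction.orbit D q).ncard := by
    intro q
    by_contra hlt
    push Not at hlt
    obtain ⟨d, hd⟩ := hfix q
    have h := hom_perm_eq_one hD (MulAction.toPermHom D (MulAction.orbit D q))
      (by rw [Nat.card_coe_set_eq]; omega) d
    have h2 := DFunLike.congr_fun h (⟨q, MulAction.mem_orbit_self q⟩ : MulAction.orbit D q)
    exact hd (congrArg Subtype.val h2)
  haveI : MulAction.IsPretransitive D L := ⟨fun a b => by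
    by_contra hc
    have hne : MulAction.orbit D a ≠ MulAction.orbit D b := fun h => hc (by
      obtain ⟨g, hg⟩ := (h ▸ MulAction.mem_orbit_self b : b ∈ MulAction.orbit D a)
      exact ⟨g, hg⟩)
    have hdisj : Disjoint (MulAction.orbit D a) (MulAction.orbit D b) := by
      rw [Set.disjoint_left]
      intro q hqa hqb
      exact hne ((MulAction.orbit_eq_iff.mpr hqa).symm.trans (MulAction.orbit_eq_iff.mpr hqb))
    have h := Set.ncard_union_eq hdisj (Set.toFinite _) (Set.toFinite _)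
    have h' := Set.ncard_le_card (MulAction.orbit D a ∪ MulAction.orbit D b)
    rw [hL9] at h'
    have := hbig a
    have := hbig b
    omega⟩
  haveI : Nonempty L := (Nat.card_pos_iff.mp (by rw [hL9]; norm_num)).1
  obtain ⟨q₀⟩ := ‹Nonempty L›
  have hidx : (MulAction.stabilizer D q₀).index = 9 := by
    rw [MulAction.index_stabilizer_of_transitive, hL9]
  set N := Y.subgroupOf D with hN
  haveI : N.Normal := ⟨fun n hn g => by
    show ((g * n * g⁻¹ : D) : MulAut E) ∈ Y
    exact (Subgroup.mem_normalizer_iff.mp (hDY g.2) _).mp hn⟩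
  set Ms := MulAction.stabilizer D q₀ ⊔ N with hMs
  have hMdvd : Ms.index ∣ 3 ^ 2 :=
    (show (3 : ℕ) ^ 2 = 9 from rfl) ▸ hidx ▸ Subgroup.index_dvd_of_le le_sup_left
  obtain ⟨m, hm, hMidx⟩ := (Nat.dvd_prime_pow (by norm_num : Nat.Prime 3)).mp hMdvd
  -- the image of the stabiliser is solvable
  have hsolS : Group.IsSolvable (MulAction.stabilizer D q₀) := by
    obtain ⟨n, hn⟩ := exists_perfect_derived (MulAction.stabilizer D q₀)
    set Kn := derivedSeries (MulAction.stabilizer D q₀) n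
    have hmapperf : commutator (Kn.map (MulAction.stabilizer D q₀).subtype : Subgroup D) = ⊤ := by
      refine Subgroup.map_injective (Subgroup.subtype_injective _) ?_
      rw [Subgroup.map_subtype_commutator, ← MonoidHom.range_eq_map, Subgroup.range_subtype,
        ← Subgroup.map_commutator]
      have := congrArg (Subgroup.map Kn.subtype) hn
      rw [Subgroup.map_subtype_commutator, ← MonoidHom.range_eq_map, Subgroup.range_subtype] at this
      rw [this]
    have h0 := hperfstab q₀ _ hmapperf (by rintro _ ⟨d, -, rfl⟩; exact d.2)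
    exact (Group.isSolvable_def _).mpr ⟨n, (Subgroup.map_eq_bot_iff_of_injective _
      (Subgroup.subtype_injective _)).mp h0⟩
  interval_cases m
  · -- the whole group
    intro d hd
    have htop : Ms = ⊤ := Subgroup.index_eq_one.mp (by rw [hMidx, pow_zero])
    let g : MulAction.stabilizer D q₀ →* D ⧸ N :=
      (QuotientGroup.mk' N).comp (MulAction.stabilizer D q₀).subtype
    have hg : Function.Surjective g := by
      intro c
      induction c using QuotientGroup.induction_on with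
      | H a =>
        obtain ⟨u, hu, v, hv, rfl⟩ := Subgroup.mem_sup_of_normal_right.mp
          (show a ∈ MulAction.stabilizer D q₀ ⊔ N from hMs ▸ htop ▸ Subgroup.mem_top a)
        refine ⟨⟨u, hu⟩, QuotientGroup.eq.mpr ?_⟩
        simpa using hv
    haveI := hsolS
    have h := hom_eq_one_of_solvable hD (QuotientGroup.mk' N)
      (Group.isSolvable_of_surjective hg) ⟨d, hd⟩
    exact (QuotientGroup.eq_one_iff (N := N) (⟨d, hd⟩ : D)).mp h
  · exfalso
    have hall : ∀ d : D, d ∈ Ms := fun d => by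
      have h := hom_perm_eq_one hD (MulAction.toPermHom D (D ⧸ Ms))
        (by rw [← Subgroup.index_eq_card, hMidx]; norm_num) d
      have h1 : d • ((1 : D) : D ⧸ Ms) = ((1 : D) : D ⧸ Ms) :=
        DFunLike.congr_fun h ((1 : D) : D ⧸ Ms)
      rw [MulAction.Quotient.smul_coe, smul_eq_mul, mul_one, QuotientGroup.eq, mul_one] at h1
      exact inv_mem_iff.mp h1
    rw [(Subgroup.eq_top_iff' Ms).mpr hall, Subgroup.index_top] at hMidx
    norm_num at hMidx
  -- the intersection with Y fixes every line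
  exfalso
  have hNstab : N ≤ MulAction.stabilizer D q₀ := by
    have heq : MulAction.stabilizer D q₀ = Ms := by
      refine Subgroup.eq_of_le_of_card_ge le_sup_left ?_
      have h1 := Subgroup.index_mul_card Ms
      have h2 := Subgroup.index_mul_card (MulAction.stabilizer D q₀)
      rw [hMidx] at h1
      rw [hidx] at h2
      omega
    exact heq.symm ▸ le_sup_right
  have hNall : ∀ q : L, ∀ n ∈ N, n • q = q := by
    intro q n hn
    obtain ⟨g, rfl⟩ := MulAction.exists_smul_eq D q₀ q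
    have h := hNstab ((‹N.Normal›).conj_mem n hn g⁻¹)
    rw [MulAction.mem_stabilizer_iff, inv_inv, mul_smul, mul_smul] at h
    exact smul_eq_iff_eq_inv_smul g⁻¹ |>.mp h |>.trans (by rw [inv_inv])
  haveI : Fact (Nat.Prime 3) := ⟨by norm_num⟩
  let P : Sylow 3 D := default
  have hPfree : ∀ p ∈ (P : Subgroup D), ∀ q : L, p • q = q → p = 1 := by
    intro p hp q h
    obtain ⟨j, hj⟩ := P.2 ⟨p, hp⟩
    have hj' : p ^ 3 ^ j = 1 := congrArg Subtype.val hj
    have hcop : Nat.Coprime 14 (3 ^ j) := (by norm_num : Nat.Coprime 14 3).pow_right j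
    exact orderOf_eq_one_iff.mp (Nat.eq_one_of_dvd_coprimes hcop
      (orderOf_dvd_of_pow_eq_one (hexp q p h)) (orderOf_dvd_of_pow_eq_one hj'))
  have hPle : Nat.card (P : Subgroup D) ≤ 9 := by
    rw [← hL9]
    refine Nat.card_le_card_of_injective (fun p : (P : Subgroup D) => (p : D) • q₀) fun p p' h => ?_
    have h' : ((p' : D)⁻¹ * p) • q₀ = q₀ := by
      rw [mul_smul, show (p : D) • q₀ = (p' : D) • q₀ from h, inv_smul_smul]
    exact Subtype.ext (inv_mul_eq_one.mp (hPfree _ ((P : Subgroup D).mul_mem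
      ((P : Subgroup D).inv_mem p'.2) p.2) _ h')).symm
  have hP9 : Nat.card (P : Subgroup D) = 3 ^ 2 := by
    have h := P.pow_dvd_card_of_pow_dvd_card (n := 2)
      (by rw [show (3 : ℕ) ^ 2 = 9 from rfl, ← hidx]; exact Subgroup.index_dvd_card _)
    have := Nat.le_of_dvd Nat.card_pos h
    norm_num at this ⊢
    omega
  have hPab := IsPGroup.commutative_of_card_eq_prime_sq hP9
  have hPfpf : ∀ p ∈ (P : Subgroup D), p ≠ 1 → ∀ x : E, (p : MulAut E) x = x → x = 1 := by
    intro p hp hp1 x hx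
    by_contra hx1
    refine hp1 (hPfree p hp ⟨line x, x, hx1, rfl⟩ (Subtype.ext ?_))
    rw [hsmul, hDline, hx]
  have hnine : ∀ p ∈ (P : Subgroup D), p ^ 9 = 1 := fun p hp =>
    congrArg Subtype.val ((hP9 ▸ pow_card_eq_one' (x := (⟨p, hp⟩ : (P : Subgroup D))) :
      (⟨p, hp⟩ : (P : Subgroup D)) ^ (3 ^ 2) = 1))
  obtain ⟨g, hgP, hg3⟩ : ∃ g ∈ (P : Subgroup D), g ^ 3 ≠ 1 := by
    by_contra hc
    push Not at hc
    haveI : Nontrivial (P : Subgroup D) := Finite.one_lt_card_iff_nontrivial.mp (by rw [hP9]; norm_num)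
    obtain ⟨⟨a, ha⟩, ha1⟩ := exists_ne (1 : (P : Subgroup D))
    have ha1' : a ≠ 1 := fun h => ha1 (Subtype.ext h)
    obtain ⟨b, hb, hba⟩ : ∃ b ∈ (P : Subgroup D), b ∉ Subgroup.zpowers a := by
      by_contra hc'
      push Not at hc'
      have hle := Subgroup.card_le_of_le (show (P : Subgroup D) ≤ Subgroup.zpowers a from hc')
      rw [hP9, Nat.card_zpowers, orderOf_eq_prime (hc a ha) ha1'] at hle
      norm_num at hle
    have hsum : ∀ p ∈ (P : Subgroup D), p ≠ 1 → ∀ x : E,
        (p : MulAut E) ((p : MulAut E) x) = x * (p : MulAut E) x := by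
      intro p hp hp1 x
      have h3 : (p : MulAut E) ((p : MulAut E) ((p : MulAut E) x)) = x := by
        have h := DFunLike.congr_fun (congrArg Subtype.val (hc p hp)) x
        rw [Subgroup.coe_pow, pow_succ, pow_two] at h
        exact h
      have hy : x * (p : MulAut E) x * (p : MulAut E) ((p : MulAut E) x) = 1 := by
        refine hPfpf p hp hp1 _ ?_
        rw [map_mul, map_mul, h3]
        ac_rfl
      have hy' := mul_eq_one_iff_eq_inv.mp hy
      rw [inv_eq_self hE] at hy'
      exact hy'.symm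
    have hab1 : a * b ≠ 1 := fun h => hba (by
      rw [eq_inv_of_mul_eq_one_right h]; exact inv_mem (Subgroup.mem_zpowers a))
    have hb1 : b ≠ 1 := fun h => hba (h ▸ one_mem _)
    refine hba (?_ : b ∈ Subgroup.zpowers a)
    suffices h : a = b by rw [← h]; exact Subgroup.mem_zpowers a
    refine Subtype.ext (MulEquiv.ext fun x => ?_)
    have hcab : ∀ y, (b : MulAut E) ((a : MulAut E) y) = (a : MulAut E) ((b : MulAut E) y) := fun y =>
      congrArg (fun p : (P : Subgroup D) => ((p : D) : MulAut E) y) (hPab ⟨b, hb⟩ ⟨a, ha⟩)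
    have h1 := hsum (a * b) ((P : Subgroup D).mul_mem ha hb) hab1 x
    rw [Subgroup.coe_mul, MulAut.mul_apply, MulAut.mul_apply, hcab, hsum a ha ha1',
      hsum b hb hb1, map_mul] at h1
    have h2 : (a : MulAut E) x * (b : MulAut E) x = 1 := by
      have e := congrArg (fun y => x * (a : MulAut E) ((b : MulAut E) x) * y) h1
      calc (a : MulAut E) x * (b : MulAut E) x
          = x * x * ((a : MulAut E) ((b : MulAut E) x) * (a : MulAut E) ((b : MulAut E) x))
              * ((a : MulAut E) x * (b : MulAut E) x) := by rw [hE, hE, one_mul, one_mul]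
        _ = x * (a : MulAut E) ((b : MulAut E) x) * (x * (a : MulAut E) ((b : MulAut E) x)) := by
          rw [← e]; ac_rfl
        _ = 1 := hE _
    rw [mul_eq_one_iff_eq_inv, inv_eq_self hE] at h2
    exact h2
  have hg3Y : ((g ^ 3 : D) : MulAut E) ∉ Y := fun h => hg3
    (hPfree _ (pow_mem hgP 3) q₀ (hNall q₀ _ h))
  -- move to an element fixing a point
  obtain ⟨v, hv⟩ : ∃ v : E, v ≠ 1 := by
    obtain ⟨x, hx, -⟩ := q₀.2
    exact ⟨x, hx⟩
  obtain ⟨y, hy, hyv⟩ := hY v ((g : MulAut E) v) hv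
    (fun h => hv ((g : MulAut E).injective (by rw [h, map_one])))
  set Nn := Subgroup.normalizer (Y : Set (MulAut E)) with hNn
  set Y' := Y.subgroupOf Nn with hY'
  haveI : Y'.Normal := Subgroup.normal_in_normalizer
  let g' : Nn := ⟨g, hDY g.2⟩
  let y' : Nn := ⟨y, Subgroup.le_normalizer hy⟩
  let h₀ : Nn := y'⁻¹ * g'
  have hord : orderOf ((h₀ : Nn) : Nn ⧸ Y') = 3 ^ (1 + 1) := by
    have he : ((h₀ : Nn) : Nn ⧸ Y') = (g' : Nn ⧸ Y') := by
      rw [QuotientGroup.mk_mul, QuotientGroup.mk_inv,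
        (QuotientGroup.eq_one_iff y').mpr (show y' ∈ Y' from hy), inv_one, one_mul]
    rw [he]
    refine orderOf_eq_prime_pow ?_ ?_
    · rw [pow_one, ← QuotientGroup.mk_pow, QuotientGroup.eq_one_iff]
      exact hg3Y
    · rw [← QuotientGroup.mk_pow,
        show g' ^ 3 ^ (1 + 1) = 1 from Subtype.ext (by
          have h9 := congrArg (fun d : D => (d : MulAut E)) (hnine g hgP)
          simpa [g'] using h9)]
      rfl
  have hdvd : 9 ∣ orderOf h₀ := by
    have h := orderOf_map_dvd (QuotientGroup.mk' Y') h₀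
    rw [QuotientGroup.mk'_apply, hord] at h
    exact h
  have hdiv : orderOf ((h₀ : MulAut E) ^ (orderOf h₀ / 9)) = 9 := by
    rw [← Subgroup.orderOf_coe h₀] at hdvd ⊢
    have hpos : 0 < orderOf (h₀ : MulAut E) := orderOf_pos _
    rw [orderOf_pow_of_dvd (Nat.pos_iff_ne_zero.mp (Nat.div_pos (Nat.le_of_dvd hpos hdvd) (by norm_num)))
      (Nat.div_dvd_of_dvd hdvd), Nat.div_div_self hdvd hpos.ne']
  set h := (h₀ : MulAut E) ^ (orderOf h₀ / 9) with hh
  have hvfix : h v = v := by
    have h0 : (h₀ : MulAut E) v = v := by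
      show y⁻¹ ((g : MulAut E) v) = v
      rw [← hyv]
      exact y.symm_apply_apply v
    rw [hh]
    generalize orderOf h₀ / 9 = t
    induction t with
    | zero => rfl
    | succ t ih => rw [pow_succ, MulAut.mul_apply, h0, ih]
  clear_value h
  clear hh
  set F₃ := fixSub (h ^ 3) with hF₃
  have hstab : ∀ x, x ∈ F₃ ↔ (h ^ 3) x = x := fun x => Iff.rfl
  have hmaps : ∀ a ∈ Subgroup.zpowers h, ∀ x, x ∉ F₃ → a x ∉ F₃ := by
    intro a ha x hx hax
    obtain ⟨i, rfl⟩ := Subgroup.mem_zpowers_iff.mp ha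
    rw [hstab, ← MulAut.mul_apply, ← zpow_natCast, ← zpow_add, add_comm, zpow_add,
      MulAut.mul_apply, zpow_natCast] at hax
    exact hx ((h ^ i).injective hax)
  have hdvd9 := card_dvd_of_free (H := Subgroup.zpowers h) {x : E | x ∉ F₃}
    (fun a ha x hx => hmaps a ha x hx) (fun a ha x hx hax => by
      by_contra ha1
      obtain ⟨i, rfl⟩ := mem_powers_iff_mem_zpowers.mpr ha
      simp only at hax ha1
      have hi : i % 9 ≠ 0 := fun hi => ha1 (by
        rw [← pow_mod_orderOf, hdiv, hi, pow_zero])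
      obtain ⟨m, hm⟩ : ∃ m : ℕ, i * m % 9 = 3 := by
        have : i % 9 < 9 := Nat.mod_lt _ (by norm_num)
        have key : ∀ r < 9, r ≠ 0 → ∃ m < 9, r * m % 9 = 3 := by decide
        obtain ⟨m, -, hm⟩ := key _ this hi
        exact ⟨m, by rw [Nat.mul_mod] at hm ⊢; rwa [Nat.mod_mod] at hm⟩
      refine hx ((hstab x).mpr ?_)
      rw [show h ^ 3 = (h ^ i) ^ m by rw [← pow_mul, ← pow_mod_orderOf h (i * m), hdiv, hm]]
      clear hm
      induction m with
      | zero => rfl
      | succ m ih => rw [pow_succ, MulAut.mul_apply, hax, ih])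
  obtain ⟨j, hj, hF⟩ := exists_card_eq_two_pow hE hk F₃
  have hcompl : Nat.card {x : E | x ∉ F₃} = 2 ^ 6 - 2 ^ j := by
    haveI := Fintype.ofFinite E
    show Nat.card {x : E // x ∉ F₃} = _
    rw [← hk, ← hF, Nat.card_eq_fintype_card, Nat.card_eq_fintype_card, Nat.card_eq_fintype_card]
    exact Fintype.card_subtype_compl _
  rw [Nat.card_zpowers, hdiv, hcompl] at hdvd9
  interval_cases j <;> norm_num at hdvd9
  · exact hv (Subgroup.mem_bot.mp ((Subgroup.eq_bot_of_card_eq _ (by rw [hF, pow_zero])) ▸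
      ((hstab v).mpr (by rw [pow_succ, pow_two, MulAut.mul_apply, MulAut.mul_apply, hvfix, hvfix, hvfix]))))
  · have htop : F₃ = ⊤ := Subgroup.eq_top_of_card_eq _ (hF.trans hk.symm)
    have h3 : h ^ 3 = 1 := MulEquiv.ext fun x => (hstab x).mp (htop ▸ Subgroup.mem_top x)
    have := orderOf_dvd_of_pow_eq_one h3
    rw [hdiv] at this
    norm_num at this

/-- The case of a fixed-point-free element of order seven. -/
theorem le_of_seven (hE : ∀ x : E, x * x = 1) (hk : Nat.card E = 2 ^ 6) {Y D : Subgroup (MulAut E)}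
    (hY : TransNonOne Y) (hD : commutator D = ⊤) (hDY : D ≤ Subgroup.normalizer (Y : Set (MulAut E)))
    {z : MulAut E} (hz7 : z ^ 7 = 1) (hfpf : ∀ x, z x = x → x = 1)
    (hDz : ∀ d ∈ D, d * z = z * d) : D ≤ Y := by
  let f : E →* E :=
    { toFun := fun x => x * z x * z (z (z x))
      map_one' := by simp
      map_mul' := fun x y => by simp only [map_mul]; ac_rfl }
  let g : E →* E :=
    { toFun := fun x => x * z (z x) * z (z (z x))
      map_one' := by simp
      map_mul' := fun x y => by simp only [map_mul]; ac_rfl }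
  by_cases hf : f.ker = ⊤
  · refine le_of_lines hE hk hY hD hDY hz7 hfpf hDz fun Q x h0 h1 _ => ?_
    have h : x * z x * z (z (z x)) = 1 := MonoidHom.mem_ker.mp (hf ▸ Subgroup.mem_top x)
    rw [← inv_eq_of_mul_eq_one_right h]
    exact Q.inv_mem (Q.mul_mem h0 h1)
  by_cases hg : g.ker = ⊤
  · refine le_of_lines hE hk hY hD hDY hz7 hfpf hDz fun Q x h0 _ h2 => ?_
    have h : x * z (z x) * z (z (z x)) = 1 := MonoidHom.mem_ker.mp (hg ▸ Subgroup.mem_top x)
    rw [← inv_eq_of_mul_eq_one_right h]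
    exact Q.inv_mem (Q.mul_mem h0 h2)
  have hz : ∀ x, z (z (z (z (z (z (z x)))))) = x := fun x => by
    have := DFunLike.congr_fun hz7 x
    simpa [pow_succ, MulAut.mul_apply] using this
  have hfg : ∀ x, f (g x) = 1 := by
    intro x
    apply hfpf
    show z ((x * z (z x) * z (z (z x))) * z (x * z (z x) * z (z (z x))) *
      z (z (z (x * z (z x) * z (z (z x)))))) = _
    simp only [map_mul, hz]
    show _ = (x * z (z x) * z (z (z x))) * z (x * z (z x) * z (z (z x))) *
      z (z (z (x * z (z x) * z (z (z x)))))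
    simp only [map_mul]
    set u1 := z x
    set u2 := z u1
    set u3 := z u2
    set u4 := z u3
    set u5 := z u4
    set u6 := z u5
    calc u1 * u3 * u4 * (u2 * u4 * u5) * (u4 * u6 * x)
        = x * u1 * u2 * u3 * u4 * u5 * u6 * (u4 * u4) := by ac_rfl
      _ = x * u1 * u2 * u3 * u4 * u5 * u6 * (u3 * u3) := by rw [hE, hE]
      _ = x * u2 * u3 * (u1 * u3 * u4) * (u3 * u5 * u6) := by ac_rfl
  have hdz : ∀ d ∈ D, ∀ x, d (z x) = z (d x) := fun d hd x => DFunLike.congr_fun (hDz d hd) x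
  rw [eq_bot_of_split hE hk hD hz7 hfpf hDz f g
    (fun x => by show z x * _ * _ = z (x * _ * _); simp only [map_mul])
    (fun x => by show z x * _ * _ = z (x * _ * _); simp only [map_mul])
    (fun d hd x => by show d x * _ * _ = d (x * _ * _); simp only [map_mul, hdz d hd])
    (fun d hd x => by show d x * _ * _ = d (x * _ * _); simp only [map_mul, hdz d hd])
    hfg (fun x h1 h2 => ?_) hf hg]
  · exact bot_le
  · have h1' : x * z x * z (z (z x)) = 1 := h1
    have h2' : x * z (z x) * z (z (z x)) = 1 := h2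
    have h : z x = z (z x) := mul_left_cancel (mul_right_cancel (h1'.trans h2'.symm))
    exact hfpf x (z.injective h).symm

end Cfsg.Agent.InvFix
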