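import Cfsg.Agent.InvFix.SixFortyNine
import Cfsg.Agent.InvFix.SixSeven

/-!
A perfect group normalising a group transitive on the non-identity elements of an elementary
abelian 2-group is contained in it.
-/

set_option autoImplicit false

namespace Cfsg.Agent.InvFix

variable {E : Type*} [CommGroup E] [Finite E]

/-- The case of order 64. -/
theorem le_of_six (hE : ∀ x : E, x * x = 1) (hk : Nat.card E = 2 ^ 6) {Y L : Subgroup (MulAut E)}
    (hY : TransNonOne Y) (hL : commutator L = ⊤)
    (hLY : L ≤ Subgroup.normalizer (Y : Set (MulAut E))) : L ≤ Y := by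
  haveI : Fact (Nat.Prime 7) := ⟨by norm_num⟩
  refine le_of_normalizer hL hLY (r := 7) fun R D hD hDR hDY => ?_
  set Rm := (R : Subgroup Y).map Y.subtype with hRm
  have hnofix : ∀ v : E, v ≠ 1 → ∃ a ∈ Rm, a v ≠ v := fun v hv => by
    obtain ⟨a, ha, hav⟩ := sylow_not_fix hY hk (by norm_num : 7 ∣ 2 ^ 6 - 1) R hv
    exact ⟨a, ⟨a, ha, rfl⟩, hav⟩
  obtain ⟨j, hj, hcard⟩ := (Nat.dvd_prime_pow (by norm_num : Nat.Prime 7)).mp
    (card_dvd_49 hE hk (R.2.map Y.subtype))
  interval_cases j
  · exfalso
    haveI : Nontrivial E := Finite.one_lt_card_iff_nontrivial.mp (by rw [hk]; norm_num)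
    obtain ⟨v, hv⟩ := exists_ne (1 : E)
    obtain ⟨a, ha, hav⟩ := hnofix v hv
    rw [Subgroup.eq_bot_of_card_eq Rm (by rw [hRm, hcard, pow_zero]), Subgroup.mem_bot] at ha
    exact hav (by rw [ha]; rfl)
  · rw [pow_one] at hcard
    haveI : Nontrivial Rm := Finite.one_lt_card_iff_nontrivial.mp (by rw [hRm, hcard]; norm_num)
    obtain ⟨⟨z, hz⟩, hz1⟩ := exists_ne (1 : Rm)
    have htop : ∀ a ∈ Rm, a ∈ Subgroup.zpowers z := fun a ha => by
      have h := mem_zpowers_of_prime_card (p := 7) (by rw [hRm, hcard]) hz1 (g' := (⟨a, ha⟩ : Rm))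
      obtain ⟨i, hi⟩ := Subgroup.mem_zpowers_iff.mp h
      exact Subgroup.mem_zpowers_iff.mpr ⟨i, by simpa using congrArg Subtype.val hi⟩
    have hfpf : ∀ x, z x = x → x = 1 := by
      intro x hx
      by_contra hx1
      obtain ⟨a, ha, hax⟩ := hnofix x hx1
      obtain ⟨i, rfl⟩ := mem_powers_iff_mem_zpowers.mpr (htop a ha)
      refine hax ?_
      clear hax ha
      induction i with
      | zero => rfl
      | succ i ih =>
        show (z ^ (i + 1)) x = x
        rw [pow_succ, MulAut.mul_apply, hx]
        exact ih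
    refine le_of_seven hE hk hY hD hDY ?_ hfpf fun d hd => ?_
    · rw [show 7 = Nat.card Rm by rw [hRm, hcard]]
      exact congrArg Subtype.val (pow_card_eq_one' (x := (⟨z, hz⟩ : Rm)))
    · exact commute_of_normalize_zpowers hD D.subtype (fun d =>
        htop _ ((Subgroup.mem_normalizer_iff.mp (hDR d.2) z).mp hz)) ⟨d, hd⟩
  · rw [eq_bot_of_forty_nine hE hk hD hDR (by rw [hRm, hcard]) hnofix]
    exact bot_le

/-- **Piece B.** A perfect group normalising a transitive group is contained in it. -/
theorem le_of_transitive (hE : ∀ x : E, x * x = 1) {Y L : Subgroup (MulAut E)}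
    (hY : TransNonOne Y) (hL : commutator L = ⊤)
    (hLY : L ≤ Subgroup.normalizer (Y : Set (MulAut E))) : L ≤ Y := by
  haveI : Fact (Nat.Prime 2) := ⟨Nat.prime_two⟩
  obtain ⟨k, hk⟩ := IsPGroup.iff_card.mp
    (fun x : E => ⟨1, by rw [pow_one, pow_two, hE]⟩ : IsPGroup 2 E)
  by_cases hk2 : 2 ≤ k
  · by_cases hk6 : k = 6
    · exact le_of_six hE (hk6 ▸ hk) hY hL hLY
    · exact le_of_primitive hE hk hk2 hk6 hY hL hLY
  · intro a _
    have ha : a = 1 := MulEquiv.ext fun x => by
      by_cases hx : x = 1
      · rw [hx, map_one, map_one]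
      · by_contra hne
        have hcard : Nat.card E ≤ 2 := by
          rw [hk]
          interval_cases k <;> norm_num
        classical
        haveI := Fintype.ofFinite E
        rw [Nat.card_eq_fintype_card] at hcard
        have h3 : ({1, x, a x} : Finset E).card ≤ 2 := (Finset.card_le_univ _).trans hcard
        rw [Finset.card_insert_of_notMem, Finset.card_insert_of_notMem, Finset.card_singleton] at h3
        · omega
        · simp only [Finset.mem_singleton]
          exact fun h => hne (by rw [MulAut.one_apply]; exact h.symm)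
        · simp only [Finset.mem_insert, Finset.mem_singleton, not_or]
          exact ⟨fun h => hx h.symm, fun h => hx (a.injective (by rw [← h, map_one]))⟩
    rw [ha]
    exact Y.one_mem

end Cfsg.Agent.InvFix
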