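import Cfsg.Agent.InvFix.SixLemmas

/-!
The case of a Sylow 7-subgroup of order 49.
-/

set_option autoImplicit false

namespace Cfsg.Agent.InvFix

open scoped commutatorElement

variable {E : Type*} [CommGroup E] [Finite E]

/-- A perfect group normalising an abelian group of order 49 without common fixed points is
trivial. -/
theorem eq_bot_of_forty_nine (hE : ∀ x : E, x * x = 1) (hk : Nat.card E = 2 ^ 6)
    {D Rm : Subgroup (MulAut E)} (hD : commutator D = ⊤)
    (hDR : D ≤ Subgroup.normalizer (Rm : Set (MulAut E))) (hcard : Nat.card Rm = 7 ^ 2)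
    (hnofix : ∀ v : E, v ≠ 1 → ∃ a ∈ Rm, a v ≠ v) : D = ⊥ := by
  classical
  haveI : Fact (Nat.Prime 7) := ⟨by norm_num⟩
  have hab : ∀ a ∈ Rm, ∀ b ∈ Rm, a * b = b * a := fun a ha b hb =>
    congrArg Subtype.val (IsPGroup.commutative_of_card_eq_prime_sq hcard ⟨a, ha⟩ ⟨b, hb⟩)
  have hpow : ∀ a ∈ Rm, a ^ 7 ^ 2 = 1 := fun a ha => by
    rw [← hcard]
    exact congrArg Subtype.val (pow_card_eq_one' (x := (⟨a, ha⟩ : Rm)))
  have happ : ∀ a ∈ Rm, ∀ b ∈ Rm, ∀ x, a (b x) = b (a x) := fun a ha b hb x =>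
    DFunLike.congr_fun (hab a ha b hb) x
  -- an element with fixed points
  obtain ⟨z, hz, hz1, v₀, hv₀, hzv⟩ : ∃ z ∈ Rm, z ≠ 1 ∧ ∃ v : E, v ≠ 1 ∧ z v = v := by
    by_contra hc
    push Not at hc
    have h := card_dvd_of_free (H := Rm) {x : E | x ≠ 1}
      (fun a _ x hx h => hx (a.injective (by rw [h, map_one])))
      (fun a ha x hx h => by_contra fun ha1 => hc a ha ha1 x hx h)
    have h63 : Nat.card {x : E | x ≠ 1} = 63 := by
      haveI := Fintype.ofFinite E
      show Nat.card {x : E // x ≠ 1} = 63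
      rw [Nat.card_eq_fintype_card] at hk ⊢
      simp [Fintype.card_subtype_compl, hk]
    rw [hcard, h63] at h
    norm_num at h
  set C := fixSub z with hC
  have hC8 : Nat.card C = 8 := card_fixSub_eq_eight hE hk (hpow z hz) hz1 hv₀ hzv
  let δ : E →* E :=
    { toFun := fun x => z x * x
      map_one' := by simp
      map_mul' := fun x y => by rw [map_mul]; ac_rfl }
  set M := δ.range with hM
  have hker : δ.ker = C := by
    ext x
    rw [MonoidHom.mem_ker, hC, mem_fixSub]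
    show z x * x = 1 ↔ z x = x
    rw [mul_eq_one_iff_eq_inv, inv_eq_self hE]
  have hM8 : Nat.card M = 8 := by
    have h := Subgroup.index_mul_card δ.ker
    rw [Subgroup.index_ker, hker, hC8, hk] at h
    rw [hM]
    omega
  have hCinv : Rm ≤ invSub C := fun b hb => mem_invSub_of_maps_to fun x hx => by
    show z (b x) = b x
    rw [happ z hz b hb, mem_fixSub.mp hx]
  have hMinv : Rm ≤ invSub M := fun b hb => mem_invSub_of_maps_to fun x hx => by
    obtain ⟨y, rfl⟩ := hx
    refine ⟨b y, ?_⟩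
    show z (b y) * b y = b (z y * y)
    rw [map_mul, happ z hz b hb]
  have hdisj : ∀ y ∈ M, z y = y → y = 1 := by
    rintro y ⟨x, rfl⟩ hy
    have hzy : z x = δ x * x := by
      show z x = z x * x * x
      rw [mul_assoc, hE, mul_one]
    have h2 : z (z x) = x := by
      rw [hzy, map_mul, hy, hzy, ← mul_assoc, hE, one_mul]
    have h48 : ∀ i : ℕ, (z ^ (2 * i)) x = x := by
      intro i
      induction i with
      | zero => rfl
      | succ i ih =>
        rw [show 2 * (i + 1) = 1 + 1 + 2 * i by omega, pow_add, pow_add, pow_one,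
          MulAut.mul_apply, MulAut.mul_apply, ih, h2]
    have h49 := DFunLike.congr_fun (hpow z hz) x
    rw [show (7 : ℕ) ^ 2 = 1 + 2 * 24 by norm_num, pow_add, pow_one, MulAut.mul_apply, h48] at h49
    show z x * x = 1
    rw [h49]
    exact hE x
  have hbij : Function.Bijective fun p : C × M => (p.1 : E) * (p.2 : E) := by
    refine (Nat.bijective_iff_injective_and_card _).mpr ⟨fun p p' h => ?_, by
      rw [Nat.card_prod, hC8, hM8, hk]; rfl⟩
    simp only at h
    have h' : ((p.1 : E))⁻¹ * (p'.1 : E) = (p.2 : E) * ((p'.2 : E))⁻¹ := by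
      rw [inv_mul_eq_iff_eq_mul, ← mul_assoc, h, mul_inv_cancel_right]
    have h1 : (p.2 : E) * ((p'.2 : E))⁻¹ = 1 :=
      hdisj _ (M.mul_mem p.2.2 (M.inv_mem p'.2.2))
        (mem_fixSub.mp (h' ▸ C.mul_mem (C.inv_mem p.1.2) p'.1.2))
    rw [h1, inv_mul_eq_one] at h'
    exact Prod.ext (Subtype.ext h') (Subtype.ext (mul_inv_eq_one.mp h1))
  have hsplit : ∀ x : E, ∃ c ∈ C, ∃ m ∈ M, x = c * m := fun x => by
    obtain ⟨⟨c, m⟩, h⟩ := hbij.2 x
    exact ⟨c, c.2, m, m.2, h.symm⟩
  -- a fixed-point-free element on each summand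
  have hfpf : ∀ Q : Subgroup E, Nat.card Q = 8 → Rm ≤ invSub Q →
      ∃ w ∈ Rm, ∀ x ∈ Q, w x = x → x = 1 := by
    intro Q hQ hinv
    obtain ⟨v, hv, hv1⟩ : ∃ v ∈ Q, v ≠ 1 := by
      have hne : Q ≠ ⊥ := fun h => by rw [h, Subgroup.card_bot] at hQ; omega
      obtain ⟨v, hv⟩ := Subgroup.ne_bot_iff_exists_ne_one.mp hne
      exact ⟨v, v.2, fun h => hv (Subtype.ext h)⟩
    obtain ⟨w, hw, hwv⟩ := hnofix v hv1
    refine ⟨w, hw, ?_⟩
    obtain ⟨j, hj, hcj⟩ := exists_card_eq_two_pow hE hk (Q ⊓ fixSub w)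
    have h := card_modEq_fix (r := 7) (hpow w hw) (fun x hx => (hinv hw x).mpr hx)
    rw [hQ, hcj] at h
    have hlt : Q ⊓ fixSub w < Q := lt_of_le_of_ne inf_le_left fun he =>
      hwv (mem_fixSub.mp ((he.ge hv).2))
    have hle : Nat.card ↥(Q ⊓ fixSub w) < 8 := hQ ▸ lt_of_le_of_ne
      (Subgroup.card_le_of_le hlt.le) (fun hc => hlt.ne (Subgroup.eq_of_le_of_card_ge hlt.le hc.ge))
    rw [hcj] at hle
    have hj3 : j < 3 := (Nat.pow_lt_pow_iff_right (show 1 < 2 by norm_num)).mp (show 2 ^ j < 2 ^ 3 from hle)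
    unfold Nat.ModEq at h
    have hj0 : j = 0 := by interval_cases j <;> simp_all
    intro x hx hwx
    have hbot : Q ⊓ fixSub w = ⊥ := Subgroup.eq_bot_of_card_eq _ (by rw [hcj, hj0, pow_zero])
    exact Subgroup.mem_bot.mp (hbot ▸ (⟨hx, hwx⟩ : x ∈ Q ⊓ fixSub w))
  obtain ⟨wC, hwC, hwCf⟩ := hfpf C hC8 hCinv
  obtain ⟨wM, hwM, hwMf⟩ := hfpf M hM8 hMinv
  -- an element fixing one point of a summand fixes all of it
  have htrans : ∀ Q : Subgroup E, Nat.card Q = 8 → Rm ≤ invSub Q → ∀ w ∈ Rm,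
      (∀ x ∈ Q, w x = x → x = 1) → ∀ b ∈ Rm, ∀ c ∈ Q, c ≠ 1 → b c = c → ∀ x ∈ Q, b x = x := by
    intro Q hQ hinv w hw hwf b hb c hc hc1 hbc x hx
    by_cases hx1 : x = 1
    · rw [hx1, map_one]
    have hp : (restrictAut Q ⟨w, hinv hw⟩) ^ 7 ^ 2 = 1 := by
      rw [← map_pow, show (⟨w, hinv hw⟩ : invSub Q) ^ 7 ^ 2 = 1 from Subtype.ext (hpow w hw),
        map_one]
    obtain ⟨i, hi⟩ := exists_pow_apply hQ hp
      (fun y hy => Subtype.ext (hwf y y.2 (congrArg Subtype.val hy))) ⟨c, hc⟩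
      (fun h => hc1 (congrArg Subtype.val h)) ⟨x, hx⟩ (fun h => hx1 (congrArg Subtype.val h))
    rw [← map_pow] at hi
    have hi' : (w ^ i) c = x := congrArg Subtype.val hi
    rw [← hi', happ b hb _ (pow_mem hw i), hbc]
  have hfixspace : ∀ b ∈ Rm, b ≠ 1 → ∀ v : E, v ≠ 1 → b v = v → fixSub b = C ∨ fixSub b = M := by
    intro b hb hb1 v hv hbv
    have h8 := card_fixSub_eq_eight hE hk (hpow b hb) hb1 hv hbv
    obtain ⟨c, hc, m, hm, rfl⟩ := hsplit v
    have h := hbij.1 (a₁ := (⟨b c, (hCinv hb c).mpr hc⟩, ⟨b m, (hMinv hb m).mpr hm⟩))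
      (a₂ := (⟨c, hc⟩, ⟨m, hm⟩)) (by show b c * b m = c * m; rw [← map_mul]; exact hbv)
    have hbc : b c = c := congrArg (fun p : C × M => (p.1 : E)) h
    have hbm : b m = m := congrArg (fun p : C × M => (p.2 : E)) h
    by_cases hc1 : c = 1
    · refine Or.inr (Subgroup.eq_of_le_of_card_ge (fun x hx => ?_) (by rw [hM8, h8])).symm
      exact htrans M hM8 hMinv wM hwM hwMf b hb m hm (fun h => hv (by rw [h, hc1, one_mul])) hbm x hx
    · refine Or.inl (Subgroup.eq_of_le_of_card_ge (fun x hx => ?_) (by rw [hC8, h8])).symm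
      exact htrans C hC8 hCinv wC hwC hwCf b hb c hc hc1 hbc x hx
  have hCM : C ≠ M := fun h => hv₀ (hdisj v₀ (h ▸ hzv) hzv)
  -- D preserves both summands
  have hzd : ∀ d ∈ D, d * z * d⁻¹ ∈ Rm := fun d hd =>
    (Subgroup.mem_normalizer_iff.mp (hDR hd) z).mp hz
  have hdC : ∀ d ∈ D, C.map d.toMonoidHom = fixSub (d * z * d⁻¹) := by
    intro d hd
    ext x
    rw [mem_fixSub, MulAut.mul_apply, MulAut.mul_apply]
    constructor
    · rintro ⟨y, hy, rfl⟩
      show d (z (d⁻¹ (d y))) = d y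
      rw [show d⁻¹ (d y) = y from d.symm_apply_apply y, mem_fixSub.mp hy]
    · intro h
      exact ⟨d⁻¹ x, mem_fixSub.mpr (d.injective (h.trans (d.apply_symm_apply x).symm)),
        d.apply_symm_apply x⟩
  have hdC' : ∀ d ∈ D, C.map d.toMonoidHom = C ∨ C.map d.toMonoidHom = M := by
    intro d hd
    rw [hdC d hd]
    refine hfixspace _ (hzd d hd) (fun h => hz1 ?_) (d v₀)
      (fun h => hv₀ (d.injective (by rw [h, map_one]))) ?_
    · calc z = d⁻¹ * (d * z * d⁻¹) * d := by group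
        _ = 1 := by rw [h, mul_one, inv_mul_cancel]
    · rw [MulAut.mul_apply, MulAut.mul_apply, show d⁻¹ (d v₀) = v₀ from d.symm_apply_apply v₀, hzv]
  let S : Subgroup D :=
    { carrier := {d | C.map (d : MulAut E).toMonoidHom = C}
      one_mem' := Subgroup.map_id C
      mul_mem' := fun {a b} ha hb => by
        show C.map ((a : MulAut E).toMonoidHom.comp (b : MulAut E).toMonoidHom) = C
        rw [← Subgroup.map_map, hb, ha]
      inv_mem' := fun {a} ha => by
        have ha' : C.map (a : MulAut E).toMonoidHom = C := ha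
        show C.map ((a : MulAut E).symm.toMonoidHom) = C
        conv_lhs => rw [← ha', Subgroup.map_map]
        convert Subgroup.map_id C
        ext x
        simp }
  have hStop : S = ⊤ := by
    rw [eq_top_iff]
    by_contra hne
    rw [SetLike.not_le_iff_exists] at hne
    obtain ⟨a, -, ha⟩ := hne
    refine index_ne_two_of_perfect hD S (Subgroup.index_eq_two_iff.mpr ⟨a, fun b => ?_⟩)
    have haM : C.map (a : MulAut E).toMonoidHom = M := (hdC' a a.2).resolve_left ha
    have hmul : ∀ d : D, (d * a ∈ S ↔ M.map (d : MulAut E).toMonoidHom = C) := fun d => by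
      show C.map ((d : MulAut E).toMonoidHom.comp (a : MulAut E).toMonoidHom) = C ↔ _
      rw [← Subgroup.map_map, haM]
    by_cases hb : b ∈ S
    · refine Or.inr ⟨hb, fun h => hCM ?_⟩
      exact Subgroup.map_injective (b : MulAut E).injective
        ((show C.map (b : MulAut E).toMonoidHom = C from hb).trans ((hmul b).mp h).symm)
    · refine Or.inl ⟨?_, hb⟩
      have hbM : C.map (b : MulAut E).toMonoidHom = M := (hdC' b b.2).resolve_left hb
      refine ((hdC' (b * a : D) (b * a : D).2)).resolve_right fun h => hCM ?_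
      rw [Subgroup.coe_mul] at h
      have h' : M.map (b : MulAut E).toMonoidHom = M := by
        conv_lhs => rw [← haM, Subgroup.map_map]
        exact h
      exact Subgroup.map_injective (b : MulAut E).injective (hbM.trans h'.symm)
  have hDC : D ≤ invSub C := fun d hd => mem_invSub_of_maps_to fun x hx => by
    have h : C.map d.toMonoidHom = C := (hStop ▸ Subgroup.mem_top (⟨d, hd⟩ : D) : (⟨d, hd⟩ : D) ∈ S)
    exact h.le ⟨x, hx, rfl⟩
  have hDM : D ≤ invSub M := fun d hd => mem_invSub_of_maps_to fun y hy => by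
    obtain ⟨x, rfl⟩ := hy
    show d (z x * x) ∈ M
    have e : d (z x) = (d * z * d⁻¹) (d x) := by
      rw [MulAut.mul_apply, MulAut.mul_apply, show d⁻¹ (d x) = x from d.symm_apply_apply x]
    rw [map_mul, e]
    obtain ⟨c, hc, m, hm, hcm⟩ := hsplit (d x)
    have hfix : fixSub (d * z * d⁻¹) = C := by
      rw [← hdC d hd]
      exact (hStop ▸ Subgroup.mem_top (⟨d, hd⟩ : D) : (⟨d, hd⟩ : D) ∈ S)
    rw [hcm, map_mul, mem_fixSub.mp (hfix.ge hc),
      show ∀ u : E, c * u * (c * m) = (c * c) * (u * m) from fun u => by ac_rfl, hE, one_mul]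
    exact M.mul_mem ((hMinv (hzd d hd) m).mpr hm) hm
  rw [Subgroup.eq_bot_iff_forall]
  intro d hd
  refine MulEquiv.ext fun x => ?_
  obtain ⟨c, hc, m, hm, rfl⟩ := hsplit x
  rw [map_mul, trivial_on_eight hC8 hD hDC hCinv hab hDR hwC (hpow wC hwC) hwCf d hd c hc,
    trivial_on_eight hM8 hD hDM hMinv hab hDR hwM (hpow wM hwM) hwMf d hd m hm]
  rfl

end Cfsg.Agent.InvFix
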