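import Cfsg.Agent.InvFix.Transitive
import Cfsg.Agent.CharTwo.TwoTimesSymmetricFour

/-!
Lemmas for the exceptional case of order 64.
-/

set_option autoImplicit false

namespace Cfsg.Agent.InvFix

open scoped commutatorElement

variable {E : Type*} [CommGroup E] [Finite E]

/-- Orbit of size at most four: a perfect group cannot move. -/
theorem hom_perm_eq_one {D X : Type*} [Group D] [Finite X] (hD : commutator D = ⊤)
    (f : D →* Equiv.Perm X) (hX : Nat.card X ≤ 4) (d : D) : f d = 1 := by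
  classical
  haveI := Fintype.ofFinite X
  rw [Nat.card_eq_fintype_card] at hX
  let i : X ↪ Fin 4 := (Fintype.equivFin X).toEmbedding.trans (Fin.castLEEmb hX)
  haveI := Cfsg.Agent.CharTwo.TwoSymFour.solvable_perm_four'
  exact hom_eq_one_of_solvable hD f
    (Group.isSolvable_of_isSolvable_injective (Equiv.Perm.viaEmbeddingHom_injective i)) d

/-- The order of a 7-group of automorphisms of a group of order 64 divides 49. -/
theorem card_dvd_49 (hE : ∀ x : E, x * x = 1) (hk : Nat.card E = 2 ^ 6)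
    {H : Subgroup (MulAut E)} (hH : IsPGroup 7 H) : Nat.card H ∣ 7 ^ 2 := by
  classical
  haveI : Fact (Nat.Prime 7) := ⟨by norm_num⟩
  letI : Module (ZMod 2) (Additive E) := AddCommGroup.zmodModule (fun a => by
    apply Additive.toMul.injective
    rw [toMul_nsmul, toMul_zero, pow_two, hE])
  haveI : Finite (Additive E) := inferInstanceAs (Finite E)
  have hfr : Module.finrank (ZMod 2) (Additive E) = 6 := by
    have h := Module.natCard_eq_pow_finrank (K := ZMod 2) (V := Additive E)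
    rw [show Nat.card (Additive E) = Nat.card E from Nat.card_congr Additive.toMul, hk,
      Nat.card_eq_fintype_card, ZMod.card] at h
    exact Nat.pow_right_injective le_rfl h.symm
  let b := Module.finBasisOfFinrankEq (ZMod 2) (Additive E) hfr
  let toEnd : MulAut E →* Module.End (ZMod 2) (Additive E) :=
    { toFun := fun a => (MonoidHom.toAdditive a.toMonoidHom).toZModLinearMap 2
      map_one' := LinearMap.ext fun _ => rfl
      map_mul' := fun _ _ => LinearMap.ext fun _ => rfl }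
  let g : MulAut E →* GL (Fin 6) (ZMod 2) :=
    ((LinearMap.toMatrixAlgEquiv b).toMulEquiv.toMonoidHom.comp toEnd).toHomUnits
  have hg : Function.Injective g := fun a c h => MulEquiv.ext fun x => Additive.ofMul.injective (by
    have h1 : toEnd a = toEnd c := (LinearMap.toMatrixAlgEquiv b).injective (congrArg Units.val h)
    exact LinearMap.congr_fun h1 (Additive.ofMul x))
  obtain ⟨m, hm⟩ := IsPGroup.iff_card.mp hH
  have hdvd := Subgroup.card_dvd_of_injective (g.comp H.subtype) (hg.comp H.subtype_injective)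
  rw [hm, Matrix.card_GL_field, Fin.prod_univ_six, ZMod.card] at hdvd
  norm_num at hdvd
  rw [hm]
  refine pow_dvd_pow 7 ?_
  by_contra hlt
  have h3 : (7 : ℕ) ^ 3 ∣ 7 ^ m := pow_dvd_pow 7 (by omega)
  have := h3.trans hdvd
  norm_num at this

/-- The trivial action of a perfect group on an invariant subgroup of order eight. -/
theorem trivial_on_eight {Q : Subgroup E} (hQ : Nat.card Q = 8) {D Rm : Subgroup (MulAut E)}
    (hD : commutator D = ⊤) (hDQ : D ≤ invSub Q) (hRQ : Rm ≤ invSub Q)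
    (hRcomm : ∀ a ∈ Rm, ∀ b ∈ Rm, a * b = b * a)
    (hDR : D ≤ Subgroup.normalizer (Rm : Set (MulAut E))) {w : MulAut E} (hw : w ∈ Rm) {e : ℕ}
    (hwp : w ^ 7 ^ e = 1) (hfpf : ∀ x ∈ Q, w x = x → x = 1) :
    ∀ d ∈ D, ∀ x ∈ Q, d x = x := by
  let w' : MulAut Q := restrictAut Q ⟨w, hRQ hw⟩
  have hwp' : w' ^ 7 ^ e = 1 := by
    rw [← map_pow, show (⟨w, hRQ hw⟩ : invSub Q) ^ 7 ^ e = 1 from Subtype.ext hwp, map_one]
  have hfpf' : ∀ x, w' x = x → x = 1 := fun x h =>
    Subtype.ext (hfpf x x.2 (congrArg Subtype.val h))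
  have hpow : ∀ b (hb : b ∈ Rm), ∃ i : ℕ, restrictAut Q ⟨b, hRQ hb⟩ = w' ^ i := fun b hb =>
    exists_eq_pow hQ hwp' hfpf' (by
      rw [← map_mul, ← map_mul]
      exact congrArg _ (Subtype.ext (hRcomm b hb w hw)))
  let f : D →* MulAut Q := (restrictAut Q).comp (Subgroup.inclusion hDQ)
  have hcomm : ∀ d, f d * w' = w' * f d := commute_of_normalize_zpowers hD f fun d => by
    have hmem := (Subgroup.mem_normalizer_iff.mp (hDR d.2) w).mp hw
    obtain ⟨i, hi⟩ := hpow _ hmem
    have : f d * w' * (f d)⁻¹ = w' ^ i := by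
      rw [← hi, MonoidHom.comp_apply, ← map_inv, ← map_mul, ← map_mul]
      rfl
    rw [this]
    exact pow_mem (Subgroup.mem_zpowers w') i
  intro d hd x hx
  have h1 := hom_eq_one_of_comm hD f (fun a c => by
    obtain ⟨i, hi⟩ := exists_eq_pow hQ hwp' hfpf' (hcomm a)
    obtain ⟨j, hj⟩ := exists_eq_pow hQ hwp' hfpf' (hcomm c)
    rw [hi, hj, ← pow_add, ← pow_add, add_comm]) ⟨d, hd⟩
  exact congrArg Subtype.val (DFunLike.congr_fun h1 ⟨x, hx⟩)

/-- Invariant subgroups of a fixed-point-free automorphism of 7-power order. -/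
theorem card_cases (hE : ∀ x : E, x * x = 1) (hk : Nat.card E = 2 ^ 6) {w : MulAut E} {e : ℕ}
    (hw : w ^ 7 ^ e = 1) {Q : Subgroup E} (hQ : ∀ x ∈ Q, w x ∈ Q)
    (hfpf : ∀ x ∈ Q, w x = x → x = 1) :
    Nat.card Q = 1 ∨ Nat.card Q = 8 ∨ Q = ⊤ := by
  haveI : Fact (Nat.Prime 7) := ⟨by norm_num⟩
  obtain ⟨j, hj, hcard⟩ := exists_card_eq_two_pow hE hk Q
  have h := card_modEq_fix hw hQ
  rw [show Q ⊓ fixSub w = ⊥ from (Subgroup.eq_bot_iff_forall _).mpr fun x hx => hfpf x hx.1 hx.2,
    hcard, Subgroup.card_bot] at h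
  unfold Nat.ModEq at h
  interval_cases j <;> simp_all
  exact Subgroup.eq_top_of_card_eq _ (hcard.trans hk.symm)

/-- A non-trivial automorphism of 7-power order with a fixed point fixes a subgroup of order 8. -/
theorem card_fixSub_eq_eight (hE : ∀ x : E, x * x = 1) (hk : Nat.card E = 2 ^ 6) {w : MulAut E}
    {e : ℕ} (hw : w ^ 7 ^ e = 1) (hw1 : w ≠ 1) {v : E} (hv : v ≠ 1) (hwv : w v = v) :
    Nat.card (fixSub w) = 8 := by
  haveI : Fact (Nat.Prime 7) := ⟨by norm_num⟩
  obtain ⟨j, hj, hcard⟩ := exists_card_eq_two_pow hE hk (fixSub w)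
  have h := card_modEq_fix hw (Q := (⊤ : Subgroup E)) (fun x _ => Subgroup.mem_top _)
  rw [top_inf_eq, hcard, Subgroup.card_top, hk] at h
  unfold Nat.ModEq at h
  interval_cases j <;> simp_all
  · exact absurd (show v ∈ fixSub w from hwv) (by simp [hcard, hv])
  · have htop : fixSub w = ⊤ := Subgroup.eq_top_of_card_eq _ (hcard.trans hk.symm)
    exact hw1 (MulEquiv.ext fun x => mem_fixSub.mp (htop ▸ Subgroup.mem_top x))

end Cfsg.Agent.InvFix
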