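import Cfsg.Agent.InvFix.Elementary
import Cfsg.Agent.InvFix.Anisotropic
import Cfsg.Agent.Arith.Zsigmondy

/-!
A perfect group normalising a transitive group of automorphisms of an elementary abelian 2-group:
the reduction to a Sylow normalizer, and the case of a primitive prime divisor.
-/

set_option autoImplicit false

namespace Cfsg.Agent.InvFix

open scoped commutatorElement

/-- A perfect group has no non-trivial homomorphism onto a commutative subgroup. -/
theorem hom_eq_one_of_comm {D A : Type*} [Group D] [Group A] (hD : commutator D = ⊤) (f : D →* A)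
    (h : ∀ a b, f a * f b = f b * f a) (d : D) : f d = 1 := by
  have hle : commutator D ≤ f.ker := by
    rw [commutator_def, Subgroup.commutator_le]
    intro a _ b _
    rw [MonoidHom.mem_ker, map_commutatorElement]
    exact commutatorElement_eq_one_iff_mul_comm.mpr (h a b)
  rw [hD] at hle
  exact MonoidHom.mem_ker.mp (hle (Subgroup.mem_top d))

theorem eq_bot_of_perfect_comm {A : Type*} [Group A] {D : Subgroup A} (hD : commutator D = ⊤)
    (h : ∀ a ∈ D, ∀ b ∈ D, a * b = b * a) : D = ⊥ := by
  rw [Subgroup.eq_bot_iff_forall]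
  exact fun d hd => hom_eq_one_of_comm hD D.subtype (fun a b => h a a.2 b b.2) ⟨d, hd⟩

/-- A perfect group normalising a cyclic group centralises it. -/
theorem commute_of_normalize_zpowers {D A : Type*} [Group D] [Group A] (hD : commutator D = ⊤)
    (f : D →* A) {w : A} (h : ∀ d, f d * w * (f d)⁻¹ ∈ Subgroup.zpowers w) (d : D) :
    f d * w = w * f d := by
  let τ : D → A → A := fun c x => f c * x * (f c)⁻¹
  have hτmul : ∀ c c' x, τ (c * c') x = τ c (τ c' x) := fun c c' x => by
    simp only [τ, map_mul]; group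
  choose e he using fun c => Subgroup.mem_zpowers_iff.mp (h c)
  have hτpow : ∀ c (n : ℤ), τ c (w ^ n) = w ^ (e c * n) := fun c n => by
    show f c * w ^ n * (f c)⁻¹ = _
    rw [← conj_zpow, ← he, zpow_mul]
  have hτ1 : ∀ x, τ 1 x = x := fun x => by simp [τ]
  have hfix : ∀ a b, τ (a * b * a⁻¹ * b⁻¹) (w ^ (1 : ℤ)) = w ^ (1 : ℤ) := fun a b => by
    conv_rhs => rw [← hτ1 (w ^ (1 : ℤ)), show (1 : D) = a * a⁻¹ * b * b⁻¹ by group]
    simp only [hτmul, hτpow]
    congr 1
    ring
  let S : Subgroup D := (Subgroup.centralizer ({w} : Set A)).comap f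
  have hle : commutator D ≤ S := by
    rw [commutator_def, Subgroup.commutator_le]
    intro a _ b _
    show f ⁅a, b⁆ ∈ Subgroup.centralizer ({w} : Set A)
    rw [Subgroup.mem_centralizer_singleton_iff, commutatorElement_def]
    have := hfix a b
    rw [zpow_one] at this
    exact mul_inv_eq_iff_eq_mul.mp this
  rw [hD] at hle
  exact Subgroup.mem_centralizer_singleton_iff.mp (hle (Subgroup.mem_top d))

variable {E : Type*} [CommGroup E] [Finite E]

/-- Transitivity on the non-identity elements. -/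
def TransNonOne (Y : Subgroup (MulAut E)) : Prop :=
  ∀ x y : E, x ≠ 1 → y ≠ 1 → ∃ a ∈ Y, a x = y

theorem sylow_not_fix {Y : Subgroup (MulAut E)} (hY : TransNonOne Y) {k : ℕ}
    (hk : Nat.card E = 2 ^ k) {r : ℕ} [Fact r.Prime] (hr : r ∣ 2 ^ k - 1) (R : Sylow r Y)
    {v : E} (hv : v ≠ 1) : ∃ a ∈ (R : Subgroup Y), (a : MulAut E) v ≠ v := by
  classical
  letI : MulAction Y {x : E // x ≠ 1} :=
    { smul := fun a x => ⟨(a : MulAut E) x, fun h => x.2 ((a : MulAut E).injective (by
        rw [h, map_one]))⟩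
      one_smul := fun x => rfl
      mul_smul := fun a b x => rfl }
  haveI : MulAction.IsPretransitive Y {x : E // x ≠ 1} := ⟨fun x y => by
    obtain ⟨a, ha, h⟩ := hY x y x.2 y.2
    exact ⟨⟨a, ha⟩, Subtype.ext h⟩⟩
  by_contra hc
  push Not at hc
  have hle : (R : Subgroup Y) ≤ MulAction.stabilizer Y (⟨v, hv⟩ : {x : E // x ≠ 1}) :=
    fun a ha => Subtype.ext (hc a ha)
  have hidx := Subgroup.index_dvd_of_le hle
  rw [MulAction.index_stabilizer_of_transitive] at hidx
  have hcard : Nat.card {x : E // x ≠ 1} = 2 ^ k - 1 := by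
    haveI := Fintype.ofFinite E
    rw [Nat.card_eq_fintype_card] at hk ⊢
    simp [Fintype.card_subtype_compl, hk]
  exact R.not_dvd_index (hr.trans (hcard ▸ hidx))

/-- A perfect group has trivial image in a solvable group. -/
theorem hom_eq_one_of_solvable {D A : Type*} [Group D] [Group A] (hD : commutator D = ⊤)
    (f : D →* A) (hA : Group.IsSolvable A) (d : D) : f d = 1 := by
  obtain ⟨n, hn⟩ := (Group.isSolvable_def A).mp hA
  have htop : ∀ m, derivedSeries D m = ⊤ := by
    intro m
    induction m with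
    | zero => rfl
    | succ m ih => rw [derivedSeries_succ, ih, ← commutator_def, hD]
  have h := map_derivedSeries_le_derivedSeries f n
  rw [hn, htop, le_bot_iff, Subgroup.map_eq_bot_iff] at h
  exact MonoidHom.mem_ker.mp (h (Subgroup.mem_top d))

theorem exists_perfect_derived (A : Type*) [Group A] [Finite A] :
    ∃ n, commutator (derivedSeries A n) = ⊤ := by
  obtain ⟨i, j, hne, heq⟩ := Finite.exists_ne_map_eq_of_infinite fun n => derivedSeries A n
  wlog hij : i < j generalizing i j
  · exact this j i hne.symm heq.symm (by omega)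
  refine ⟨i, Subgroup.map_injective (Subgroup.subtype_injective _) ?_⟩
  rw [Subgroup.map_subtype_commutator, ← derivedSeries_succ, ← MonoidHom.range_eq_map,
    Subgroup.range_subtype]
  exact le_antisymm (derivedSeries_antitone A i.le_succ)
    (heq.le.trans (derivedSeries_antitone A hij))

/-- The reduction to the normalizer of a Sylow subgroup. -/
theorem le_of_normalizer {A : Type*} [Group A] [Finite A] {Y L : Subgroup A}
    (hL : commutator L = ⊤) (hLY : L ≤ Subgroup.normalizer (Y : Set A)) {r : ℕ} [Fact r.Prime]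
    (hD : ∀ (R : Sylow r Y) (D : Subgroup A), commutator D = ⊤ →
      D ≤ Subgroup.normalizer (((R : Subgroup Y).map Y.subtype : Subgroup A) : Set A) →
      D ≤ Subgroup.normalizer (Y : Set A) → D ≤ Y) : L ≤ Y := by
  classical
  set Nn := Subgroup.normalizer (Y : Set A) with hNn
  set Y' := Y.subgroupOf Nn with hY'
  haveI : Y'.Normal := Subgroup.normal_in_normalizer
  obtain ⟨R'⟩ : Nonempty (Sylow r Y') := inferInstance
  let e : Y' ≃* Y := Subgroup.subgroupOfEquivOfLe Subgroup.le_normalizer
  let R : Sylow r Y := R'.comapOfInjective e.symm.toMonoidHom e.symm.injective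
    (by rw [MonoidHom.range_eq_top.mpr e.symm.surjective]; exact le_top)
  have hmem : ∀ x : Nn, x ∈ (R' : Subgroup Y').map Y'.subtype ↔
      (x : A) ∈ (R : Subgroup Y).map Y.subtype := by
    intro x
    constructor
    · rintro ⟨y, hy, rfl⟩
      exact ⟨e y, show e.symm (e y) ∈ (R' : Subgroup Y') by rw [e.symm_apply_apply]; exact hy, rfl⟩
    · rintro ⟨y, hy, hyx⟩
      exact ⟨e.symm y, hy, Subtype.ext hyx⟩
  let N : Subgroup Nn := Subgroup.normalizer (((R' : Subgroup Y').map Y'.subtype : Subgroup Nn) : Set Nn)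
  have hfrat : N ⊔ Y' = ⊤ := Sylow.normalizer_sup_eq_top R'
  have hNn' : ∀ x : Nn, x ∈ N →
      (x : A) ∈ Subgroup.normalizer (((R : Subgroup Y).map Y.subtype : Subgroup A) : Set A) := by
    intro x hx
    rw [Subgroup.mem_normalizer_iff]
    intro a
    have hle : (R : Subgroup Y).map Y.subtype ≤ Nn :=
      (Subgroup.map_subtype_le _).trans Subgroup.le_normalizer
    constructor
    · intro ha
      exact (hmem (x * ⟨a, hle ha⟩ * x⁻¹)).mp
        ((Subgroup.mem_normalizer_iff.mp hx _).mp ((hmem ⟨a, hle ha⟩).mpr ha))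
    · intro ha
      have hb := (hmem ⟨_, hle ha⟩).mpr ha
      have he : (⟨(x : A) * a * (x : A)⁻¹, hle ha⟩ : Nn) = x * (x⁻¹ * ⟨_, hle ha⟩ * x) * x⁻¹ := by
        group
      rw [he] at hb
      have h2 := (hmem _).mp ((Subgroup.mem_normalizer_iff.mp hx _).mpr hb)
      simpa [mul_assoc] using h2
  obtain ⟨n, hn⟩ := exists_perfect_derived N
  let D : Subgroup A := (derivedSeries N n).map (Nn.subtype.comp N.subtype)
  have hDY : D ≤ Y := by
    refine hD R D ?_ ?_ ?_
    · have hi : Function.Injective (Nn.subtype.comp N.subtype) :=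
        Nn.subtype_injective.comp N.subtype_injective
      refine Subgroup.map_injective D.subtype_injective ?_
      rw [Subgroup.map_subtype_commutator, ← MonoidHom.range_eq_map, Subgroup.range_subtype,
        ← Subgroup.map_commutator]
      have := congrArg (Subgroup.map (derivedSeries N n).subtype) hn
      rw [Subgroup.map_subtype_commutator, ← MonoidHom.range_eq_map, Subgroup.range_subtype] at this
      rw [this]
    · rintro _ ⟨x, -, rfl⟩
      exact hNn' x.1 x.2
    · rintro _ ⟨x, -, rfl⟩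
      exact x.1.2
  let π : N →* Nn ⧸ Y' := (QuotientGroup.mk' Y').comp N.subtype
  have hπ : Function.Surjective π := by
    intro q
    induction q using QuotientGroup.induction_on with
    | H a =>
      obtain ⟨u, hu, y, hy, rfl⟩ := Subgroup.mem_sup_of_normal_right.mp
        (show a ∈ N ⊔ Y' from hfrat ▸ Subgroup.mem_top a)
      refine ⟨⟨u, hu⟩, QuotientGroup.eq.mpr ?_⟩
      simpa using hy
  have hsol : Group.IsSolvable (Nn ⧸ Y') := by
    refine (Group.isSolvable_def _).mpr ⟨n, ?_⟩
    rw [← map_derivedSeries_eq hπ n, eq_bot_iff]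
    rintro _ ⟨x, hx, rfl⟩
    exact (QuotientGroup.eq_one_iff _).mpr (hDY ⟨x, hx, rfl⟩)
  intro l hl
  have h := hom_eq_one_of_solvable hL ((QuotientGroup.mk' Y').comp (Subgroup.inclusion hLY)) hsol
    ⟨l, hl⟩
  exact (QuotientGroup.eq_one_iff (N := Y') (Subgroup.inclusion hLY ⟨l, hl⟩)).mp h

/-- The centraliser of an automorphism with no invariant subgroup is cyclic. -/
theorem isCyclic_centralizer (hE : ∀ x : E, x * x = 1) [Nontrivial E] (z : MulAut E)
    (hirr : ∀ Q : Subgroup E, (∀ x ∈ Q, z x ∈ Q) → Q = ⊥ ∨ Q = ⊤) :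
    IsCyclic (Subgroup.centralizer ({z} : Set (MulAut E))) := by
  classical
  let toEnd : MulAut E →* AddMonoid.End (Additive E) :=
    { toFun := fun a => MonoidHom.toAdditive a.toMonoidHom
      map_one' := rfl
      map_mul' := fun _ _ => rfl }
  let F : Subring (AddMonoid.End (Additive E)) := Subring.centralizer {toEnd z}
  haveI : Finite (AddMonoid.End (Additive E)) := by
    haveI : Finite (Additive E) := inferInstanceAs (Finite E)
    exact Finite.of_injective _ DFunLike.coe_injective
  have hinj : ∀ T : F, T ≠ 0 → Function.Injective (T : AddMonoid.End (Additive E)) := by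
    intro T hT
    let Q : Subgroup E :=
      { carrier := {x | (T : AddMonoid.End (Additive E)) (Additive.ofMul x) = 0}
        one_mem' := map_zero _
        mul_mem' := fun {a b} ha hb => by
          show (T : AddMonoid.End (Additive E)) (Additive.ofMul a + Additive.ofMul b) = 0
          rw [map_add, ha, hb, add_zero]
        inv_mem' := fun {a} ha => by
          show (T : AddMonoid.End (Additive E)) (-Additive.ofMul a) = 0
          rw [map_neg, ha, neg_zero] }
    have hQ : ∀ x ∈ Q, z x ∈ Q := by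
      intro x hx
      have h := DFunLike.congr_fun (Subring.mem_centralizer_iff.mp T.2 _ rfl) (Additive.ofMul x)
      show (T : AddMonoid.End (Additive E)) (toEnd z (Additive.ofMul x)) = 0
      rw [show (T : AddMonoid.End (Additive E)) (toEnd z (Additive.ofMul x)) =
        toEnd z ((T : AddMonoid.End (Additive E)) (Additive.ofMul x)) from h.symm, hx, map_zero]
    rcases hirr Q hQ with h | h
    · rw [injective_iff_map_eq_zero]
      intro a ha
      have : a.toMul ∈ Q := ha
      rw [h, Subgroup.mem_bot] at this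
      exact this
    · refine absurd (Subtype.ext (DFunLike.ext _ _ fun a => ?_)) hT
      exact (show a.toMul ∈ Q from h ▸ Subgroup.mem_top _)
  obtain ⟨x₁, hx₁⟩ := exists_ne (1 : E)
  haveI : Nontrivial F := ⟨⟨1, 0, fun h => hx₁ (by
    exact DFunLike.congr_fun (congrArg Subtype.val h) (Additive.ofMul x₁))⟩⟩
  haveI : NoZeroDivisors F := ⟨fun {S T} h => by
    by_contra hc
    push Not at hc
    refine hx₁ (hinj T hc.2 (hinj S hc.1 ?_))
    show (S * T : F).1 (Additive.ofMul x₁) = (S : AddMonoid.End (Additive E)) ((T : AddMonoid.End (Additive E)) 0)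
    rw [h, map_zero, map_zero]
    rfl⟩
  haveI : IsDomain F := NoZeroDivisors.to_isDomain _
  letI := (Finite.isDomain_to_isField F).toField
  let f : Subgroup.centralizer ({z} : Set (MulAut E)) →* F :=
    { toFun := fun c => ⟨toEnd c, Subring.mem_centralizer_iff.mpr (by
        rintro g rfl
        rw [← map_mul, ← map_mul, Subgroup.mem_centralizer_singleton_iff.mp c.2])⟩
      map_one' := rfl
      map_mul' := fun _ _ => rfl }
  refine isCyclic_of_injective_ringHom f fun a b h => Subtype.ext (MulEquiv.ext fun x => ?_)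
  exact Additive.ofMul.injective (DFunLike.congr_fun (congrArg Subtype.val h) (Additive.ofMul x))

/-- The case of a primitive prime divisor. -/
theorem le_of_primitive (hE : ∀ x : E, x * x = 1) {k : ℕ} (hk : Nat.card E = 2 ^ k) (hk2 : 2 ≤ k)
    (hk6 : k ≠ 6) {Y L : Subgroup (MulAut E)} (hY : TransNonOne Y) (hL : commutator L = ⊤)
    (hLY : L ≤ Subgroup.normalizer (Y : Set (MulAut E))) : L ≤ Y := by
  classical
  obtain ⟨r, hr, hdvd, hprim⟩ := Cfsg.Agent.Arith.exists_primitive_prime_divisor
    (show 1 < 2 by norm_num) (show 1 < k by omega) (fun h => hk6 h.2) (by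
      rintro ⟨-, m, hm⟩
      have h1 : m ≠ 0 := by rintro rfl; omega
      have h2 : 2 ∣ 2 ^ m := dvd_pow_self 2 h1
      omega)
  haveI : Fact r.Prime := ⟨hr⟩
  haveI : Nontrivial E := Finite.one_lt_card_iff_nontrivial.mp (by
    rw [hk]; exact Nat.one_lt_two_pow (by omega))
  have hE2 : ∃ v : E, v ≠ 1 := exists_ne 1
  refine le_of_normalizer hL hLY (r := r) fun R D hD hDR hDY => ?_
  obtain ⟨v₀, hv₀⟩ := hE2
  have hRne : Nontrivial (R : Subgroup Y) := by
    obtain ⟨a, ha, hav⟩ := sylow_not_fix hY hk hdvd R hv₀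
    exact ⟨⟨⟨a, ha⟩, 1, fun h => hav (by
      rw [show a = 1 from congrArg Subtype.val h]; rfl)⟩⟩
  haveI := R.2.center_nontrivial
  obtain ⟨z, hz⟩ := exists_prime_orderOf_dvd_card' (G := Subgroup.center (R : Subgroup Y)) r (by
    obtain ⟨m, hm⟩ := IsPGroup.iff_card.mp (R.2.to_subgroup (Subgroup.center (R : Subgroup Y)))
    have h1 : 1 < Nat.card (Subgroup.center (R : Subgroup Y)) := Finite.one_lt_card
    rw [hm] at h1 ⊢
    exact dvd_pow_self r (by rintro rfl; simp at h1))
  set w : MulAut E := (((z : (R : Subgroup Y)) : Y) : MulAut E) with hw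
  have hwr : w ^ r ^ 1 = 1 := by
    rw [pow_one, ← hz]
    exact congrArg (fun t : Subgroup.center (R : Subgroup Y) =>
      (((t : (R : Subgroup Y)) : Y) : MulAut E)) (pow_orderOf_eq_one z)
  have hw1 : w ≠ 1 := fun h => by
    have : z = 1 := Subtype.ext (Subtype.ext (Subtype.ext h))
    rw [this, orderOf_one] at hz
    exact hr.one_lt.ne hz
  have hmod : ∀ j : ℕ, j ≤ k → 2 ^ j ≡ 1 [MOD r] → j = 0 ∨ j = k := fun j hj h => by
    by_contra hc
    push Not at hc
    exact hprim j (Nat.pos_of_ne_zero hc.1) (lt_of_le_of_ne hj hc.2)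
      ((Nat.modEq_iff_dvd' Nat.one_le_two_pow).mp h.symm)
  have hk1 : 2 ^ k ≡ 1 [MOD r] := ((Nat.modEq_iff_dvd' Nat.one_le_two_pow).mpr hdvd).symm
  have hfix : fixSub w = ⊥ := by
    obtain ⟨j, hj, hcard⟩ := exists_card_eq_two_pow hE hk (fixSub w)
    have h := card_modEq_fix hwr (Q := (⊤ : Subgroup E)) (fun x _ => Subgroup.mem_top _)
    rw [top_inf_eq, hcard, Subgroup.card_top, hk] at h
    rcases hmod j hj (h.symm.trans hk1) with rfl | rfl
    · exact Subgroup.eq_bot_of_card_eq _ (by rw [hcard, pow_zero])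
    · have htop : fixSub w = ⊤ := Subgroup.eq_top_of_card_eq _ (hcard.trans hk.symm)
      refine absurd (MulEquiv.ext fun x => ?_) hw1
      exact mem_fixSub.mp (htop ▸ Subgroup.mem_top x)
  have hirr : ∀ Q : Subgroup E, (∀ x ∈ Q, w x ∈ Q) → Q = ⊥ ∨ Q = ⊤ := by
    intro Q hQ
    obtain ⟨j, hj, hcard⟩ := exists_card_eq_two_pow hE hk Q
    have h := card_modEq_fix hwr hQ
    rw [hfix, inf_bot_eq, hcard, Subgroup.card_bot] at h
    rcases hmod j hj h with rfl | rfl
    · exact Or.inl (Subgroup.eq_bot_of_card_eq _ (by rw [hcard, pow_zero]))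
    · exact Or.inr (Subgroup.eq_top_of_card_eq _ (hcard.trans hk.symm))
  haveI := isCyclic_centralizer hE w hirr
  set Rm := (R : Subgroup Y).map Y.subtype with hRm
  have hRC : Rm ≤ Subgroup.centralizer ({w} : Set (MulAut E)) := by
    rintro _ ⟨a, ha, rfl⟩
    exact Subgroup.mem_centralizer_singleton_iff.mpr (congrArg
      (fun t : (R : Subgroup Y) => ((t : Y) : MulAut E)) (Subgroup.mem_center_iff.mp z.2 ⟨a, ha⟩))
  haveI : IsCyclic Rm := isCyclic_of_injective (Subgroup.inclusion hRC) (Subgroup.inclusion_injective _)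
  obtain ⟨g, hg⟩ := IsCyclic.exists_generator (α := Rm)
  have hgz : ∀ x ∈ Rm, x ∈ Subgroup.zpowers (g : MulAut E) := fun x hx => by
    obtain ⟨i, hi⟩ := Subgroup.mem_zpowers_iff.mp (hg ⟨x, hx⟩)
    exact Subgroup.mem_zpowers_iff.mpr ⟨i, by simpa using congrArg Subtype.val hi⟩
  have hcomm : ∀ d ∈ D, d * (g : MulAut E) = (g : MulAut E) * d := fun d hd =>
    commute_of_normalize_zpowers hD D.subtype (fun d =>
      hgz _ ((Subgroup.mem_normalizer_iff.mp (hDR d.2) _).mp g.2)) ⟨d, hd⟩
  have hDC : D ≤ Subgroup.centralizer ({w} : Set (MulAut E)) := fun d hd => by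
    have hwR : w ∈ Rm := ⟨((z : (R : Subgroup Y)) : Y), (z : (R : Subgroup Y)).2, rfl⟩
    obtain ⟨i, hi⟩ := Subgroup.mem_zpowers_iff.mp (hgz w hwR)
    rw [Subgroup.mem_centralizer_singleton_iff, ← hi]
    exact (Commute.zpow_right (hcomm d hd) i).eq
  rw [eq_bot_of_perfect_comm hD fun a ha b hb => congrArg Subtype.val
    (IsMulCommutative.is_comm.comm (⟨a, hDC ha⟩ : Subgroup.centralizer ({w} : Set (MulAut E)))
      ⟨b, hDC hb⟩)]
  exact bot_le

end Cfsg.Agent.InvFix
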